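import Mathlib

set_option autoImplicit false

/-! The presentation `⟨x, y | x³, y³, (xy)²⟩` of the alternating group `A₄`, and the resulting
recognition lemma `exists_A4`. -/

namespace Cfsg.Agent.Lib.Helper14.A4Pres

section bound

variable {G : Type*} [Group G]

theorem key_rel (x y : G) (hx : x ^ 3 = 1) (hy : y ^ 3 = 1) (hxy : (x * y) ^ 2 = 1) :
    x⁻¹ * (x * y) * x = (x * y) * (x * (x * y) * x⁻¹) := by
  have ht : (x * y) * (x * y) = 1 := by rw [← pow_two]; exact hxy
  have hti : (x * y)⁻¹ = x * y := inv_eq_of_mul_eq_one_left ht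
  have hx' : x * x * x = 1 := by rw [← hx, pow_succ, pow_two]
  have hy' : y * y * y = 1 := by rw [← hy, pow_succ, pow_two]
  have key : (x⁻¹ * (x * y) * x) * ((x * (x * y) * x⁻¹) * (x * y)) = 1 := by
    calc (x⁻¹ * (x * y) * x) * ((x * (x * y) * x⁻¹) * (x * y))
        = y * (x * x * x) * (y * y * y) * y⁻¹ := by group
      _ = 1 := by rw [hx', hy']; group
  have hA := eq_inv_of_mul_eq_one_left key
  rw [hA, mul_inv_rev, hti]
  congr 1
  rw [mul_inv_rev, mul_inv_rev, inv_inv, hti]
  simp only [mul_assoc]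

/-- every element of the group generated by `x`, `y` with `x³ = y³ = (xy)² = 1` has the
form `t^i v^j x^k`, `i, j < 2`, `k < 3` -/
theorem mem_form (x y : G) (hx : x ^ 3 = 1) (hy : y ^ 3 = 1) (hxy : (x * y) ^ 2 = 1) :
    ∀ g ∈ Subgroup.closure ({x, y} : Set G), ∃ i j k : ℕ, i < 2 ∧ j < 2 ∧ k < 3 ∧
      g = (x * y) ^ i * (x * (x * y) * x⁻¹) ^ j * x ^ k := by
  have hb := key_rel x y hx hy hxy
  have hx2 : x * x = x⁻¹ := eq_inv_of_mul_eq_one_left (by rw [← hx, pow_succ, pow_two])
  generalize ht : x * y = t at hb hxy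
  have hy' : y = x⁻¹ * t := by rw [← ht]; group
  generalize hv : x * t * x⁻¹ = v at hb
  have ht2 : t * t = 1 := by rw [← pow_two]; exact hxy
  have hti : t⁻¹ = t := inv_eq_of_mul_eq_one_left ht2
  have hv2 : v ^ 2 = 1 := by rw [← hv, conj_pow, hxy, mul_one, mul_inv_cancel]
  have hvv : v * v = 1 := by rw [← pow_two]; exact hv2
  have hvi : v⁻¹ = v := inv_eq_of_mul_eq_one_left hvv
  have hcomm : Commute t v := by
    have h1 : (t * v) * (t * v) = 1 := by
      calc (t * v) * (t * v) = (x⁻¹ * t * x) * (x⁻¹ * t * x) := by rw [hb]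
        _ = x⁻¹ * (t * t) * x := by group
        _ = 1 := by rw [ht2, mul_one, inv_mul_cancel]
    have h2 : t * v = (t * v)⁻¹ := eq_inv_of_mul_eq_one_left h1
    rw [mul_inv_rev, hti, hvi] at h2
    exact h2
  have hxv : x * v * x⁻¹ = t * v := by
    calc x * v * x⁻¹ = (x * x) * t * (x * x)⁻¹ := by rw [← hv]; group
      _ = x⁻¹ * t * x := by rw [hx2, inv_inv]
      _ = t * v := hb
  have hconj : ∀ k : ℕ, ∃ i j : ℕ, x ^ k * t = t ^ i * v ^ j * x ^ k := by
    intro k
    induction k with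
    | zero => exact ⟨1, 0, by simp⟩
    | succ k ih =>
      obtain ⟨i, j, h⟩ := ih
      refine ⟨j, i + j, ?_⟩
      calc x ^ (k + 1) * t = x * (x ^ k * t) := by rw [pow_succ', mul_assoc]
        _ = x * (t ^ i * v ^ j * x ^ k) := by rw [h]
        _ = (x * t * x⁻¹) ^ i * (x * v * x⁻¹) ^ j * (x * x ^ k) := by
            rw [conj_pow, conj_pow]; group
        _ = v ^ i * (t * v) ^ j * x ^ (k + 1) := by rw [hv, hxv, ← pow_succ']
        _ = t ^ j * v ^ (i + j) * x ^ (k + 1) := by
            rw [hcomm.mul_pow, ← mul_assoc (v ^ i), (hcomm.symm.pow_pow i j).eq,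
              mul_assoc (t ^ j), ← pow_add]
  let S : Set G := {g | ∃ i j k : ℕ, g = t ^ i * v ^ j * x ^ k}
  have hSx : ∀ s ∈ S, s * x ∈ S := by
    rintro s ⟨i, j, k, rfl⟩
    exact ⟨i, j, k + 1, by rw [pow_succ, mul_assoc]⟩
  have hSt : ∀ s ∈ S, s * t ∈ S := by
    rintro s ⟨i, j, k, rfl⟩
    obtain ⟨i', j', h⟩ := hconj k
    refine ⟨i + i', j + j', k, ?_⟩
    calc t ^ i * v ^ j * x ^ k * t = t ^ i * v ^ j * (x ^ k * t) := by rw [mul_assoc]
      _ = t ^ i * v ^ j * (t ^ i' * v ^ j' * x ^ k) := by rw [h]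
      _ = t ^ i * (v ^ j * t ^ i') * v ^ j' * x ^ k := by simp only [mul_assoc]
      _ = t ^ i * (t ^ i' * v ^ j) * v ^ j' * x ^ k := by rw [(hcomm.symm.pow_pow j i').eq]
      _ = t ^ (i + i') * v ^ (j + j') * x ^ k := by rw [pow_add, pow_add]; simp only [mul_assoc]
  have hSy : ∀ s ∈ S, s * y ∈ S := by
    intro s hs
    have h1 := hSt _ (hSx _ (hSx _ hs))
    have h2 : s * x * x * t = s * y := by
      rw [hy', mul_assoc s x x, hx2, mul_assoc]
    rw [h2] at h1
    exact h1
  let K : Subgroup G :=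
    { carrier := {p | ∀ s : G, s ∈ S ↔ s * p ∈ S}
      mul_mem' := by
        intro a b ha hb s
        rw [ha s, hb (s * a), mul_assoc]
      one_mem' := by intro s; rw [mul_one]
      inv_mem' := by
        intro a ha s
        rw [ha (s * a⁻¹), inv_mul_cancel_right] }
  have hxK : x ∈ K := by
    intro s
    refine ⟨hSx s, fun h => ?_⟩
    have h1 := hSx _ (hSx _ h)
    have h2 : s * x * x * x = s := by
      rw [mul_assoc, mul_assoc, ← mul_assoc x x x, ← pow_three', hx, mul_one]
    rw [h2] at h1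
    exact h1
  have hyK : y ∈ K := by
    intro s
    refine ⟨hSy s, fun h => ?_⟩
    have h1 := hSy _ (hSy _ h)
    have h2 : s * y * y * y = s := by
      rw [mul_assoc, mul_assoc, ← mul_assoc y y y, ← pow_three', hy, mul_one]
    rw [h2] at h1
    exact h1
  have hle : Subgroup.closure ({x, y} : Set G) ≤ K := by
    rw [Subgroup.closure_le]
    intro z hz
    rcases hz with rfl | rfl
    · exact hxK
    · exact hyK
  intro g hg
  have h1 : (1 : G) * g ∈ S := (hle hg 1).mp ⟨0, 0, 0, by simp⟩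
  rw [one_mul] at h1
  obtain ⟨i, j, k, rfl⟩ := h1
  refine ⟨i % 2, j % 2, k % 3, Nat.mod_lt _ (by norm_num), Nat.mod_lt _ (by norm_num),
    Nat.mod_lt _ (by norm_num), ?_⟩
  rw [← pow_eq_pow_mod i hxy, ← pow_eq_pow_mod j hv2, ← pow_eq_pow_mod k hx]

end bound

/-- the relators -/
abbrev rels : Set (FreeGroup (Fin 2)) :=
  {FreeGroup.of (0 : Fin 2) ^ 3, FreeGroup.of (1 : Fin 2) ^ 3,
    (FreeGroup.of (0 : Fin 2) * FreeGroup.of 1) ^ 2}

/-- the presented group -/
abbrev P := PresentedGroup rels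

/-- first generator -/
noncomputable def px : P := PresentedGroup.of 0
/-- second generator -/
noncomputable def py : P := PresentedGroup.of 1

theorem hx3 : px ^ 3 = 1 := by
  have h : PresentedGroup.mk rels (FreeGroup.of 0 ^ 3) = 1 :=
    PresentedGroup.one_of_mem (by simp [rels])
  rw [map_pow] at h
  exact h

theorem hy3 : py ^ 3 = 1 := by
  have h : PresentedGroup.mk rels (FreeGroup.of 1 ^ 3) = 1 :=
    PresentedGroup.one_of_mem (by simp [rels])
  rw [map_pow] at h
  exact h

theorem hxy2 : (px * py) ^ 2 = 1 := by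
  have h : PresentedGroup.mk rels ((FreeGroup.of 0 * FreeGroup.of 1) ^ 2) = 1 :=
    PresentedGroup.one_of_mem (by simp [rels])
  rw [map_pow, map_mul] at h
  exact h

/-- the twelve normal forms -/
noncomputable def rep (c : Fin 2 × Fin 2 × Fin 3) : P :=
  (px * py) ^ (c.1 : ℕ) * (px * (px * py) * px⁻¹) ^ (c.2.1 : ℕ) * px ^ (c.2.2 : ℕ)

theorem rep_surj : Function.Surjective rep := by
  intro p
  have hp : p ∈ Subgroup.closure ({px, py} : Set P) := by
    refine PresentedGroup.generated_by rels _ ?_ p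
    intro j
    fin_cases j
    · exact Subgroup.subset_closure (Or.inl rfl)
    · exact Subgroup.subset_closure (Or.inr rfl)
  obtain ⟨i, j, k, hi, hj, hk, rfl⟩ := mem_form px py hx3 hy3 hxy2 p hp
  exact ⟨(⟨i, hi⟩, ⟨j, hj⟩, ⟨k, hk⟩), rfl⟩

/-- the 3-cycle `(0 1 2)` -/
def ga : alternatingGroup (Fin 4) :=
  ⟨Equiv.swap 0 1 * Equiv.swap 1 2, Equiv.Perm.mem_alternatingGroup.mpr (by decide)⟩

/-- the 3-cycle `(1 2 3)` -/
def gb : alternatingGroup (Fin 4) :=
  ⟨Equiv.swap 1 2 * Equiv.swap 2 3, Equiv.Perm.mem_alternatingGroup.mpr (by decide)⟩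

theorem card_A4 : Nat.card (alternatingGroup (Fin 4)) = 12 := by
  rw [nat_card_alternatingGroup, Nat.card_fin]
  rfl

theorem lift_rel : ∀ r ∈ rels, FreeGroup.lift ![ga, gb] r = 1 := by
  intro r hr
  simp only [rels, Set.mem_insert_iff, Set.mem_singleton_iff] at hr
  rcases hr with rfl | rfl | rfl
  · simp only [map_pow, FreeGroup.lift_apply_of]
    decide
  · simp only [map_pow, FreeGroup.lift_apply_of]
    decide
  · simp only [map_pow, map_mul, FreeGroup.lift_apply_of]
    decide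

/-- the homomorphism to `A₄` -/
noncomputable def φ : P →* alternatingGroup (Fin 4) := PresentedGroup.toGroup lift_rel

theorem φ_px : φ px = ga := by simp [φ, px]

theorem φ_py : φ py = gb := by simp [φ, py]

set_option maxRecDepth 100000 in
theorem A4_forms : ∀ g : alternatingGroup (Fin 4), ∃ i : Fin 2, ∃ j : Fin 2, ∃ k : Fin 3,
    (ga * gb) ^ (i : ℕ) * (ga * (ga * gb) * ga⁻¹) ^ (j : ℕ) * ga ^ (k : ℕ) = g := by
  decide +kernel

set_option maxRecDepth 100000 in
theorem A4_nc : ∀ g : alternatingGroup (Fin 4), g ≠ 1 → ∃ h k : alternatingGroup (Fin 4),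
    h * g * h⁻¹ * (k * g⁻¹ * k⁻¹) = ga * gb := by
  decide +kernel

theorem φ_surj : Function.Surjective φ := by
  intro g
  obtain ⟨i, j, k, h⟩ := A4_forms g
  refine ⟨rep (i, j, k), ?_⟩
  rw [← h]
  simp only [rep, map_mul, map_pow, map_inv, φ_px, φ_py]

theorem φ_bij : Function.Bijective φ := by
  have hfin : Finite P := Finite.of_surjective rep rep_surj
  have h1 : Nat.card P ≤ 12 := by
    have := Nat.card_le_card_of_surjective rep rep_surj
    simpa using this
  have h2 : 12 ≤ Nat.card P := by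
    have := Nat.card_le_card_of_surjective φ φ_surj
    rwa [card_A4] at this
  exact (Nat.bijective_iff_surjective_and_card φ).mpr ⟨φ_surj, by rw [card_A4]; omega⟩

/-- `⟨x, y | x³, y³, (xy)²⟩ ≅ A₄` -/
noncomputable def presEquiv : P ≃* alternatingGroup (Fin 4) := MulEquiv.ofBijective φ φ_bij

/-- a group with elements `x`, `y` such that `x³ = y³ = (xy)² = 1` and `xy ≠ 1` contains `A₄` -/
theorem exists_A4 {G : Type*} [Group G] (x y : G) (hx : x ^ 3 = 1) (hy : y ^ 3 = 1)
    (hxy : (x * y) ^ 2 = 1) (hne : x * y ≠ 1) :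
    ∃ H : Subgroup G, Nonempty (H ≃* alternatingGroup (Fin 4)) := by
  have hrel : ∀ r ∈ rels, FreeGroup.lift ![x, y] r = 1 := by
    intro r hr
    simp only [rels, Set.mem_insert_iff, Set.mem_singleton_iff] at hr
    rcases hr with rfl | rfl | rfl
    · simpa using hx
    · simpa using hy
    · simpa using hxy
  let ψ : P →* G := PresentedGroup.toGroup hrel
  let f : alternatingGroup (Fin 4) →* G := ψ.comp presEquiv.symm.toMonoidHom
  have hf : f (ga * gb) = x * y := by
    have h1 : presEquiv (px * py) = ga * gb := by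
      show φ (px * py) = ga * gb
      rw [map_mul, φ_px, φ_py]
    have h2 : presEquiv.symm (ga * gb) = px * py := by
      rw [← h1, MulEquiv.symm_apply_apply]
    show ψ (presEquiv.symm (ga * gb)) = x * y
    rw [h2]
    simp [ψ, px, py]
  have hinj : Function.Injective f := by
    rw [injective_iff_map_eq_one]
    intro g hg
    by_contra hne1
    obtain ⟨h, k, hhk⟩ := A4_nc g hne1
    apply hne
    rw [← hf, ← hhk]
    simp [hg]
  exact ⟨f.range, ⟨(MonoidHom.ofInjective hinj).symm⟩⟩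

end Cfsg.Agent.Lib.Helper14.A4Pres
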