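import Mathlib
import Cfsg.Agent.Lib.Helper25.ACStmt

/-! # S3912 / ABODDSUB (helper14): `AbOdd` for the group `↥A₁` and `Z₀.subgroupOf A₁`. -/

set_option autoImplicit false

namespace Cfsg.Agent.Lib.Helper14.ACABODDSUB

open Cfsg.Agent.Lib.Helper25.ACStmt

universe u

theorem main (h : AbOdd.{u}) : AbOddSub.{u} := by
  intro G _ _ r _ hr2 Z₀ A₁ hZ hle hord hcomm hdvd a ha b hb
  have hcard : Nat.card ↥(Z₀.subgroupOf A₁) = r := by
    rw [← hZ]
    exact Nat.card_congr (Subgroup.subgroupOfEquivOfLe hle).toEquiv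
  have hord' : ∀ x : ↥A₁, orderOf x = r → x ∈ Z₀.subgroupOf A₁ := by
    intro x hx
    rw [Subgroup.mem_subgroupOf]
    apply hord
    rw [← hx]
    exact Subgroup.orderOf_coe x
  have hcomm' : ∀ x y : ↥A₁, x * y * x⁻¹ * y⁻¹ ∈ Z₀.subgroupOf A₁ := by
    intro x y
    rw [Subgroup.mem_subgroupOf]
    exact hcomm x x.2 y y.2
  have key := h ↥A₁ r hr2 (Z₀.subgroupOf A₁) hcard hord' hcomm' hdvd ⟨a, ha⟩ ⟨b, hb⟩
  exact congrArg Subtype.val key

end Cfsg.Agent.Lib.Helper14.ACABODDSUB
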