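import Mathlib
import Cfsg.Agent.Lib.Helper64.AutStmt

set_option autoImplicit false

/-! Piece GC of the S4411 call: the `p`-elements of `C(H₀)` lie in `H₀`. -/

namespace Cfsg.Agent.Lib.Helper14.AutGC

open Cfsg Cfsg.Agent.Lib.Helper64.AutStmt

universe u

variable {G : Type u} [Group G]

/-- relative Sylow conjugacy. -/
theorem relSylConj [Finite G] (p : ℕ) [Fact p.Prime] (X T P : Subgroup G) (hTX : T ≤ X)
    (hcard : Nat.card T = p ^ (Nat.card X).factorization p) (hPX : P ≤ X) (hP : IsPGroup p P) :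
    ∃ x ∈ X, ∀ g ∈ P, x * g * x⁻¹ ∈ T := by
  have hc : Nat.card (T.subgroupOf X) = p ^ (Nat.card X).factorization p := by
    rw [← hcard]
    exact Nat.card_congr (Subgroup.subgroupOfEquivOfLe hTX).toEquiv
  let S : Sylow p ↥X := Sylow.ofCard (T.subgroupOf X) hc
  have hP' : IsPGroup p (P.subgroupOf X) := hP.comap_of_injective X.subtype X.subtype_injective
  obtain ⟨Q, hQ⟩ := hP'.exists_le_sylow
  obtain ⟨x, hx⟩ := MulAction.exists_smul_eq (↥X) Q S
  refine ⟨(x : G), x.2, fun g hg => ?_⟩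
  have h1 : (⟨g, hPX hg⟩ : ↥X) ∈ (Q : Subgroup ↥X) := hQ (Subgroup.mem_subgroupOf.2 hg)
  have h2 : x * ⟨g, hPX hg⟩ * x⁻¹ ∈ (S : Subgroup ↥X) := by
    rw [← hx, Sylow.coe_subgroup_smul]
    have := Subgroup.smul_mem_pointwise_smul _ (MulAut.conj x) _ h1
    simpa [MulAut.smul_def, MulAut.conj_apply] using this
  have h3 : x * ⟨g, hPX hg⟩ * x⁻¹ ∈ T.subgroupOf X := h2
  simpa [Subgroup.mem_subgroupOf] using h3

theorem mem_normalizer_of_conj_le [Finite G] {K : Subgroup G} {g : G}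
    (h : ∀ k ∈ K, g * k * g⁻¹ ∈ K) : g ∈ Subgroup.normalizer (K : Set G) := by
  rw [Subgroup.mem_normalizer_iff_map_conj_eq]
  apply Subgroup.eq_of_le_of_card_ge
  · rintro _ ⟨k, hk, rfl⟩
    exact h k hk
  · exact le_of_eq (Nat.card_congr
      (Subgroup.equivMapOfInjective K _ (MulAut.conj g).injective).toEquiv)

theorem mem_of_pow_mem_of_coprime {K : Subgroup G} {g : G} {a b : ℕ} (hab : Nat.Coprime a b)
    (ha : g ^ a ∈ K) (hb : g ^ b ∈ K) : g ∈ K := by
  have h1 := Nat.gcd_eq_gcd_ab a b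
  rw [hab] at h1
  have h2 : g = (g ^ a) ^ (Nat.gcdA a b) * (g ^ b) ^ (Nat.gcdB a b) := by
    rw [← zpow_natCast g a, ← zpow_natCast g b, ← zpow_mul, ← zpow_mul, ← zpow_add, ← h1]
    simp
  rw [h2]
  exact K.mul_mem (K.zpow_mem ha _) (K.zpow_mem hb _)

theorem normalizer_sup {A B : Subgroup G} {g : G} (hA : g ∈ Subgroup.normalizer (A : Set G))
    (hB : g ∈ Subgroup.normalizer (B : Set G)) : g ∈ Subgroup.normalizer ((A ⊔ B : Subgroup G) : Set G) := by
  rw [Subgroup.mem_normalizer_iff_map_conj_eq] at hA hB ⊢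
  rw [Subgroup.map_sup, hA, hB]

theorem conj_centralizer {H : Subgroup G} {n c : G} (hn : n ∈ Subgroup.normalizer (H : Set G))
    (hc : c ∈ Subgroup.centralizer (H : Set G)) : n * c * n⁻¹ ∈ Subgroup.centralizer (H : Set G) := by
  rw [Subgroup.mem_centralizer_iff] at hc ⊢
  intro h hh
  have h1 : n⁻¹ * h * n ∈ H := by
    have := (Subgroup.mem_normalizer_iff''.1 hn h).1 hh
    exact this
  have h2 := hc _ h1
  calc h * (n * c * n⁻¹) = n * ((n⁻¹ * h * n) * c) * n⁻¹ := by group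
    _ = n * (c * (n⁻¹ * h * n)) * n⁻¹ := by rw [h2]
    _ = n * c * n⁻¹ * h := by group

theorem main : GC.{u} := by
  intro p q hpF hqF hpq G _ _ T H₀ hSyl hH₀T hBad hmax
  have hp : p.Prime := hpF.out
  have hq : q.Prime := hqF.out
  obtain ⟨hTN, hcard⟩ := hSyl
  set N : Subgroup G := Subgroup.normalizer (H₀ : Set G) with hN
  set C : Subgroup G := Subgroup.centralizer (H₀ : Set G) with hC
  have hCN : C ≤ N := Subgroup.centralizer_le_normalizer _
  have hPGT : IsPGroup p T := IsPGroup.of_card hcard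
  -- P₀
  set P₀ : Subgroup G := T ⊓ C with hP₀
  have hP₀T : P₀ ≤ T := inf_le_left
  have hP₀C : P₀ ≤ C := inf_le_right
  have hPGP₀ : IsPGroup p P₀ := hPGT.to_le hP₀T
  -- card of P₀
  have hcardP₀ : Nat.card P₀ = p ^ (Nat.card C).factorization p := by
    let P₁ : Sylow p ↥C := default
    set Q : Subgroup G := (P₁ : Subgroup ↥C).map C.subtype with hQ
    have hQc : Nat.card Q = p ^ (Nat.card C).factorization p := by
      rw [← Sylow.card_eq_multiplicity P₁]
      exact (Nat.card_congr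
        (Subgroup.equivMapOfInjective _ _ C.subtype_injective).toEquiv).symm
    have hQC : Q ≤ C := by
      rintro _ ⟨c, -, rfl⟩
      exact c.2
    have hQp : IsPGroup p Q := P₁.2.map _
    obtain ⟨n, hn, hnQ⟩ := relSylConj p N T Q hTN hcard (hQC.trans hCN) hQp
    have hle : Nat.card Q ≤ Nat.card P₀ := by
      have hinj : Function.Injective (fun g : Q => (⟨n * g * n⁻¹,
          ⟨hnQ g g.2, conj_centralizer hn (hQC g.2)⟩⟩ : P₀)) := by
        intro a b hab
        have := congrArg Subtype.val hab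
        simp only at this
        exact Subtype.ext (by simpa using this)
      exact Nat.card_le_card_of_injective _ hinj
    obtain ⟨j, hj⟩ := hPGP₀.exists_card_eq
    have hdvd : p ^ j ∣ Nat.card C := hj ▸ Subgroup.card_dvd_of_le hP₀C
    have hjle : j ≤ (Nat.card C).factorization p :=
      (hp.pow_dvd_iff_le_factorization Nat.card_pos.ne').1 hdvd
    rw [hQc, hj] at hle
    have hge : (Nat.card C).factorization p ≤ j := (Nat.pow_le_pow_iff_right hp.one_lt).1 hle
    rw [hj, le_antisymm hjle hge]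
  -- T normalizes P₀
  have hTP₀ : ∀ t ∈ T, t ∈ Subgroup.normalizer (P₀ : Set G) := by
    intro t ht
    apply mem_normalizer_of_conj_le
    intro k hk
    exact ⟨T.mul_mem (T.mul_mem ht hk.1) (T.inv_mem ht), conj_centralizer (hTN ht) hk.2⟩
  -- the bad element
  obtain ⟨y, -, hyN, ⟨k, hyk⟩, hyC⟩ := hBad
  -- Frattini
  obtain ⟨c, hcC, hcy⟩ : ∃ c ∈ C, c * y ∈ Subgroup.normalizer (P₀ : Set G) := by
    set P' : Subgroup G := P₀.map (MulAut.conj y).toMonoidHom with hP'
    have hP'C : P' ≤ C := by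
      rintro _ ⟨g, hg, rfl⟩
      exact conj_centralizer hyN (hP₀C hg)
    have hP'p : IsPGroup p P' := hPGP₀.map _
    obtain ⟨c, hc, hcP⟩ := relSylConj p C P₀ P' hP₀C hcardP₀ hP'C hP'p
    refine ⟨c, hc, mem_normalizer_of_conj_le fun g hg => ?_⟩
    have := hcP (y * g * y⁻¹) ⟨g, hg, rfl⟩
    have e : c * y * g * (c * y)⁻¹ = c * (y * g * y⁻¹) * c⁻¹ := by group
    rw [e]
    exact this
  set n : G := c * y with hn
  have hnN : n ∈ N := N.mul_mem (hCN hcC) hyN
  have hnC : n ∉ C := by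
    intro h
    apply hyC
    have : y = c⁻¹ * n := by rw [hn]; group
    rw [this]
    exact C.mul_mem (C.inv_mem hcC) h
  -- powers of n are in C * powers of y
  have hpow : ∀ j : ℕ, ∃ d ∈ C, n ^ j = d * y ^ j := by
    intro j
    induction j with
    | zero => exact ⟨1, C.one_mem, by simp⟩
    | succ j ih =>
      obtain ⟨d, hd, hdj⟩ := ih
      refine ⟨d * (y ^ j * c * (y ^ j)⁻¹), C.mul_mem hd
        (conj_centralizer (N.pow_mem hyN j) hcC), ?_⟩
      rw [pow_succ, hdj, hn, pow_succ]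
      group
  have hnqk : n ^ (q ^ k) ∈ C := by
    obtain ⟨d, hd, hdj⟩ := hpow (q ^ k)
    rw [hdj, hyk, mul_one]
    exact hd
  -- q-part
  have ho : orderOf n ≠ 0 := (orderOf_pos n).ne'
  set m : ℕ := orderOf n / q ^ (orderOf n).factorization q with hm
  set a : ℕ := (orderOf n).factorization q with ha
  have hom : q ^ a * m = orderOf n := Nat.ordProj_mul_ordCompl_eq_self (orderOf n) q
  have hcop : Nat.Coprime q m := Nat.coprime_ordCompl hq ho
  set x : G := n ^ m with hx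
  have hxq : x ^ (q ^ a) = 1 := by
    rw [hx, ← pow_mul, mul_comm, hom, pow_orderOf_eq_one]
  have hxN : x ∈ N := N.pow_mem hnN m
  have hxP₀ : x ∈ Subgroup.normalizer (P₀ : Set G) := Subgroup.pow_mem _ hcy m
  have hxC : x ∉ C := by
    intro h
    exact hnC (mem_of_pow_mem_of_coprime (Nat.Coprime.pow_right k hcop.symm) h hnqk)
  -- R
  have hR := hmax (H₀ ⊔ P₀) le_sup_left (sup_le hH₀T hP₀T)
    (fun t ht => normalizer_sup (hTN ht) (hTP₀ t ht))
    ⟨x, Subgroup.mem_top x, normalizer_sup hxN hxP₀, ⟨a, hxq⟩,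
      fun h => hxC (Subgroup.centralizer_le (by
        intro g hg
        exact (le_sup_left : H₀ ≤ H₀ ⊔ P₀) hg) h)⟩
  have hP₀H : P₀ ≤ H₀ := le_sup_right.trans_eq hR
  -- conclusion
  intro z hz ⟨e, hze⟩
  have hzp : IsPGroup p (Subgroup.zpowers z) := by
    rintro ⟨g, hg⟩
    obtain ⟨i, rfl⟩ := Subgroup.mem_zpowers_iff.1 hg
    refine ⟨e, Subtype.ext ?_⟩
    show (z ^ i) ^ (p ^ e) = 1
    rw [← zpow_natCast, ← zpow_mul, mul_comm, zpow_mul, zpow_natCast, hze, one_zpow]
  have hzN : Subgroup.zpowers z ≤ N := by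
    rw [Subgroup.zpowers_le]
    exact hCN hz
  obtain ⟨w, hw, hwz⟩ := relSylConj p N T (Subgroup.zpowers z) hTN hcard hzN hzp
  have h1 : w * z * w⁻¹ ∈ H₀ :=
    hP₀H ⟨hwz z (Subgroup.mem_zpowers z), conj_centralizer hw hz⟩
  have h2 := (Subgroup.mem_normalizer_iff''.1 hw _).1 h1
  have e2 : w⁻¹ * (w * z * w⁻¹) * w = z := by group
  rw [e2] at h2
  exact h2

end Cfsg.Agent.Lib.Helper14.AutGC
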