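import Mathlib
import Cfsg.Agent.Lib.Helper42.G2Base

/-!
# The stabiliser of the standard idempotent of the Zorn algebra embeds in `SL₃`

Piece C3 of helper42's plan for S4632 (board post 1554): `stab_card_dvd`.
-/

set_option autoImplicit false

namespace Cfsg.Agent.Lib.Helper14.G2Stab

open Cfsg.Lie Cfsg.Agent.Lib.Helper42.G2Base

variable {F : Type*} [Field F]

/-- embedding of the `a`-coordinates -/
def inA : (Fin 3 → F) →ₗ[F] (Fin 8 → F) where
  toFun a := ![0, a 0, a 1, a 2, 0, 0, 0, 0]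
  map_add' := by intro a b; ext i; fin_cases i <;> simp
  map_smul' := by intro c a; ext i; fin_cases i <;> simp

/-- embedding of the `b`-coordinates -/
def inB : (Fin 3 → F) →ₗ[F] (Fin 8 → F) where
  toFun b := ![0, 0, 0, 0, b 0, b 1, b 2, 0]
  map_add' := by intro a b; ext i; fin_cases i <;> simp
  map_smul' := by intro c a; ext i; fin_cases i <;> simp

/-- projection to the `a`-coordinates -/
def prA : (Fin 8 → F) →ₗ[F] (Fin 3 → F) where
  toFun x := ![x 1, x 2, x 3]
  map_add' := by intro a b; ext i; fin_cases i <;> simp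
  map_smul' := by intro c a; ext i; fin_cases i <;> simp

/-- projection to the `b`-coordinates -/
def prB : (Fin 8 → F) →ₗ[F] (Fin 3 → F) where
  toFun x := ![x 4, x 5, x 6]
  map_add' := by intro a b; ext i; fin_cases i <;> simp
  map_smul' := by intro c a; ext i; fin_cases i <;> simp

lemma inA_apply (a : Fin 3 → F) : inA a = ![0, a 0, a 1, a 2, 0, 0, 0, 0] := rfl
lemma inB_apply (b : Fin 3 → F) : inB b = ![0, 0, 0, 0, b 0, b 1, b 2, 0] := rfl
lemma prA_apply (x : Fin 8 → F) : prA x = ![x 1, x 2, x 3] := rfl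
lemma prB_apply (x : Fin 8 → F) : prB x = ![x 4, x 5, x 6] := rfl

lemma prA_inA (a : Fin 3 → F) : prA (inA a) = a := by
  ext i; fin_cases i <;> simp [prA_apply, inA_apply]

lemma prB_inB (a : Fin 3 → F) : prB (inB a) = a := by
  ext i; fin_cases i <;> simp [prB_apply, inB_apply]

lemma zornMul_e0_left (x : Fin 8 → F) :
    zornMul (e0 F) x = ![x 0, x 1, x 2, x 3, 0, 0, 0, 0] := by
  ext i; fin_cases i <;> simp [zornMul, e0, dot3, cross3]

lemma zornMul_e0_right (x : Fin 8 → F) :
    zornMul x (e0 F) = ![x 0, 0, 0, 0, x 4, x 5, x 6, 0] := by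
  ext i; fin_cases i <;> simp [zornMul, e0, dot3, cross3]

lemma zornMul_one8_left (x : Fin 8 → F) : zornMul (one8 F) x = x := by
  ext i; fin_cases i <;> simp [zornMul, one8, dot3, cross3]

lemma zornMul_one8_right (x : Fin 8 → F) : zornMul x (one8 F) = x := by
  ext i; fin_cases i <;> simp [zornMul, one8, dot3, cross3]

lemma zornMul_inA_inB (a b : Fin 3 → F) : zornMul (inA a) (inB b) = dot3 a b • e0 F := by
  ext i; fin_cases i <;> simp [zornMul, inA_apply, inB_apply, e0, dot3, cross3]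

lemma zornMul_inA_inA (a c : Fin 3 → F) : zornMul (inA a) (inA c) = inB (cross3 a c) := by
  ext i; fin_cases i <;> simp [zornMul, inA_apply, inB_apply, dot3, cross3]

lemma decomp (x : Fin 8 → F) :
    x = x 0 • e0 F + inA (prA x) + inB (prB x) + x 7 • (one8 F - e0 F) := by
  ext i; fin_cases i <;> simp [inA_apply, inB_apply, prA_apply, prB_apply, e0, one8]

section aut

variable (g : (Fin 8 → F) ≃ₗ[F] (Fin 8 → F)) (hg : g ∈ AutO F) (he : g (e0 F) = e0 F)

include hg in
lemma apply_one8 : g (one8 F) = one8 F := by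
  have h1 : ∀ y, zornMul (g (one8 F)) y = y := by
    intro y
    have h := hg (one8 F) (g.symm y)
    rw [zornMul_one8_left, LinearEquiv.apply_symm_apply] at h
    exact h.symm
  rw [← zornMul_one8_right (g (one8 F))]
  exact h1 _

include hg he in
lemma apply_inA (a : Fin 3 → F) : g (inA a) = inA (prA (g (inA a))) := by
  have h1 : zornMul (e0 F) (inA a) = inA a := by
    rw [zornMul_e0_left]; ext i; fin_cases i <;> simp [inA_apply]
  have h2 : zornMul (inA a) (e0 F) = 0 := by
    rw [zornMul_e0_right]; ext i; fin_cases i <;> simp [inA_apply]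
  have h3 := hg (e0 F) (inA a)
  rw [h1, he, zornMul_e0_left] at h3
  have h4 := hg (inA a) (e0 F)
  rw [h2, he, zornMul_e0_right, map_zero] at h4
  generalize g (inA a) = y at h3 h4 ⊢
  have e0' := congrFun h4 0
  have e4 := congrFun h3 4
  have e5 := congrFun h3 5
  have e6 := congrFun h3 6
  have e7 := congrFun h3 7
  simp at e0' e4 e5 e6 e7
  ext i; fin_cases i <;> simp [inA_apply, prA_apply, e0'.symm, e4, e5, e6, e7]

include hg he in
lemma apply_inB (b : Fin 3 → F) : g (inB b) = inB (prB (g (inB b))) := by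
  have h1 : zornMul (inB b) (e0 F) = inB b := by
    rw [zornMul_e0_right]; ext i; fin_cases i <;> simp [inB_apply]
  have h2 : zornMul (e0 F) (inB b) = 0 := by
    rw [zornMul_e0_left]; ext i; fin_cases i <;> simp [inB_apply]
  have h3 := hg (inB b) (e0 F)
  rw [h1, he, zornMul_e0_right] at h3
  have h4 := hg (e0 F) (inB b)
  rw [h2, he, zornMul_e0_left, map_zero] at h4
  generalize g (inB b) = y at h3 h4 ⊢
  have e0' := congrFun h4 0
  have e1 := congrFun h3 1
  have e2 := congrFun h3 2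
  have e3 := congrFun h3 3
  have e7 := congrFun h3 7
  simp at e0' e1 e2 e3 e7
  ext i; fin_cases i <;> simp [inB_apply, prB_apply, e0'.symm, e1, e2, e3, e7]

include hg he in
lemma dot_AB (a b : Fin 3 → F) :
    dot3 (prA (g (inA a))) (prB (g (inB b))) = dot3 a b := by
  have h := hg (inA a) (inB b)
  rw [zornMul_inA_inB, map_smul, he, apply_inA g hg he a, apply_inB g hg he b,
    zornMul_inA_inB] at h
  have h0 := congrFun h 0
  simp only [Pi.smul_apply, smul_eq_mul, e0, Matrix.cons_val_zero, mul_one] at h0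
  exact h0.symm

include hg he in
lemma cross_AB (a c : Fin 3 → F) :
    prB (g (inB (cross3 a c))) = cross3 (prA (g (inA a))) (prA (g (inA c))) := by
  have h := hg (inA a) (inA c)
  rw [zornMul_inA_inA] at h
  rw [h, apply_inA g hg he a, apply_inA g hg he c, zornMul_inA_inA, prB_inB, prA_inA, prA_inA]

end aut

/-- the action on the `a`-coordinates -/
def Amap (g : (Fin 8 → F) ≃ₗ[F] (Fin 8 → F)) : (Fin 3 → F) →ₗ[F] (Fin 3 → F) :=
  prA ∘ₗ (g : (Fin 8 → F) →ₗ[F] (Fin 8 → F)) ∘ₗ inA

lemma Amap_apply (g : (Fin 8 → F) ≃ₗ[F] (Fin 8 → F)) (a : Fin 3 → F) :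
    Amap g a = prA (g (inA a)) := rfl

lemma det_toMatrix' (f : (Fin 3 → F) →ₗ[F] (Fin 3 → F)) :
    (LinearMap.toMatrix' f).det = dot3 (cross3 (f ![1, 0, 0]) (f ![0, 1, 0])) (f ![0, 0, 1]) := by
  have h0 : (Pi.single 0 1 : Fin 3 → F) = ![1, 0, 0] := by
    ext i; fin_cases i <;> simp
  have h1 : (Pi.single 1 1 : Fin 3 → F) = ![0, 1, 0] := by
    ext i; fin_cases i <;> simp
  have h2 : (Pi.single 2 1 : Fin 3 → F) = ![0, 0, 1] := by
    ext i; fin_cases i <;> simp
  rw [Matrix.det_fin_three]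
  simp only [LinearMap.toMatrix'_apply, dot3, cross3, Matrix.cons_val_zero,
    Matrix.cons_val_one, Matrix.cons_val_two]
  simp only [h0, h1, h2]
  simp
  ring

lemma det_Amap (g : (Fin 8 → F) ≃ₗ[F] (Fin 8 → F)) (hg : g ∈ AutO F) (he : g (e0 F) = e0 F) :
    (LinearMap.toMatrix' (Amap g)).det = 1 := by
  rw [det_toMatrix']
  simp only [Amap_apply]
  rw [← cross_AB g hg he]
  have hc : cross3 (![1, 0, 0] : Fin 3 → F) ![0, 1, 0] = ![0, 0, 1] := by
    ext i; fin_cases i <;> simp [cross3]
  rw [hc]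
  have hcomm : ∀ u v : Fin 3 → F, dot3 u v = dot3 v u := by
    intro u v; simp only [dot3]; ring
  rw [hcomm, dot_AB g hg he]
  simp [dot3]

lemma Amap_mul (g h : (Fin 8 → F) ≃ₗ[F] (Fin 8 → F)) (hh : h ∈ AutO F)
    (he : h (e0 F) = e0 F) : Amap (g * h) = Amap g ∘ₗ Amap h := by
  refine LinearMap.ext fun a => ?_
  rw [LinearMap.comp_apply]
  simp only [Amap_apply, LinearEquiv.mul_apply]
  rw [apply_inA h hh he a, prA_inA]

lemma Amap_one : Amap (1 : (Fin 8 → F) ≃ₗ[F] (Fin 8 → F)) = LinearMap.id := by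
  refine LinearMap.ext fun a => ?_
  simp only [Amap_apply, LinearEquiv.coe_one, id_eq, LinearMap.id_coe]
  exact prA_inA a

lemma eq_one_of_Amap (g : (Fin 8 → F) ≃ₗ[F] (Fin 8 → F)) (hg : g ∈ AutO F)
    (he : g (e0 F) = e0 F) (hA : Amap g = LinearMap.id) : g = 1 := by
  have hA' : ∀ a : Fin 3 → F, prA (g (inA a)) = a := by
    intro a
    have := congrArg (fun f : (Fin 3 → F) →ₗ[F] (Fin 3 → F) => f a) hA
    simpa [Amap_apply] using this
  have hB' : ∀ b : Fin 3 → F, prB (g (inB b)) = b := by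
    intro b
    have h0 := dot_AB g hg he ![1, 0, 0] b
    have h1 := dot_AB g hg he ![0, 1, 0] b
    have h2 := dot_AB g hg he ![0, 0, 1] b
    rw [hA'] at h0 h1 h2
    simp [dot3] at h0 h1 h2
    ext i; fin_cases i
    · exact h0
    · exact h1
    · exact h2
  ext1 x
  rw [LinearEquiv.coe_one, id_eq]
  conv_lhs => rw [decomp x]
  rw [map_add, map_add, map_add, map_smul, map_smul, map_sub, he, apply_one8 g hg,
    apply_inA g hg he, apply_inB g hg he, hA', hB']
  exact (decomp x).symm

theorem stab_card_dvd {F : Type*} [Field F] [Fintype F]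
    (S : Subgroup ((Fin 8 → F) ≃ₗ[F] (Fin 8 → F)))
    (hS : S ≤ AutO F) (hfix : ∀ g ∈ S, g (e0 F) = e0 F) :
    Nat.card S ∣ Nat.card (Matrix.SpecialLinearGroup (Fin 3) F) := by
  classical
  let f : S →* Matrix.SpecialLinearGroup (Fin 3) F :=
    { toFun := fun g => ⟨LinearMap.toMatrix' (Amap g.1), det_Amap g.1 (hS g.2) (hfix g.1 g.2)⟩
      map_one' := by
        apply Subtype.ext
        show LinearMap.toMatrix' (Amap ((1 : S) : (Fin 8 → F) ≃ₗ[F] (Fin 8 → F))) = 1
        rw [Subgroup.coe_one, Amap_one, LinearMap.toMatrix'_id]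
      map_mul' := by
        intro g h
        apply Subtype.ext
        show LinearMap.toMatrix' (Amap ((g * h : S) : (Fin 8 → F) ≃ₗ[F] (Fin 8 → F))) =
          LinearMap.toMatrix' (Amap g.1) * LinearMap.toMatrix' (Amap h.1)
        rw [Subgroup.coe_mul, Amap_mul g.1 h.1 (hS h.2) (hfix h.1 h.2), LinearMap.toMatrix'_comp] }
  have hf : Function.Injective f := by
    rw [injective_iff_map_eq_one]
    intro g hg1
    have h1 : LinearMap.toMatrix' (Amap g.1) = 1 := congrArg Subtype.val hg1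
    have h2 : Amap g.1 = LinearMap.id := by
      apply LinearMap.toMatrix'.injective
      rw [h1, LinearMap.toMatrix'_id]
    apply Subtype.ext
    exact eq_one_of_Amap g.1 (hS g.2) (hfix g.1 g.2) h2
  exact Subgroup.card_dvd_of_injective f hf

end Cfsg.Agent.Lib.Helper14.G2Stab
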