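import Mathlib
import Cfsg.Agent.Lib.Helper40.GFStmt

/-! # S5886 / K2COMM (helper14)

`T (a • v) = A a • v` with `A a = a + b a • e`, `b e = 0`.  With the dilation `δ` of factor `d`
along `v` (`norm d = 1`), `h' = T δ T⁻¹ δ⁻¹` is `a • v ↦ A (d * A⁻¹ (d⁻¹ * a)) • v` on `L v` and
the identity modulo `L v`; conjugating the transvection `x ↦ x + (d c₀ ψ x) • v` by `h'` gives
`E (nu b e d c₀)`. -/

set_option autoImplicit false

namespace Cfsg.Agent.Lib.Helper14.GFK2COMM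

open Cfsg.Agent.Lib.Helper40.GFStmt

universe u

theorem inv_apply' {F : Type u} {W : Type u} [Field F] [AddCommGroup W] [Module F W]
    (g : W ≃ₗ[F] W) (x : W) : g (g⁻¹ x) = x := by
  rw [← LinearEquiv.mul_apply, mul_inv_cancel]
  rfl

theorem main : K2Comm.{u} := by
  intro F L _ _ _ _ k c v ψ e b hv hψ hbe hT d c₀ hd
  obtain ⟨T, hTM, hT⟩ := hT
  classical
  have hd0 : d ≠ 0 := by
    intro h
    rw [h, Algebra.norm_zero] at hd
    exact zero_ne_one hd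
  obtain ⟨j, hj⟩ : ∃ j, v j ≠ 0 := by
    by_contra h
    exact hv (funext fun i => by_contra fun hi => h ⟨i, hi⟩)
  obtain ⟨φ₁, hφ₁⟩ : ∃ φ₁ : V k L →ₗ[L] L, φ₁ v = 1 :=
    ⟨(v j)⁻¹ • LinearMap.proj j, by
      rw [LinearMap.smul_apply, LinearMap.proj_apply, smul_eq_mul, inv_mul_cancel₀ hj]⟩
  have hAA' : ∀ a : L, (a - b a • e) + b (a - b a • e) • e = a := by
    intro a
    rw [map_sub, map_smul, hbe, smul_zero, sub_zero, sub_add_cancel]
  have hTinv : ∀ a : L, T⁻¹ (a • v) = (a - b a • e) • v := by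
    intro a
    apply T.injective
    rw [inv_apply', hT, hAA']
  have hf : ((d - 1) • φ₁) v = d - 1 := by
    rw [LinearMap.smul_apply, hφ₁, smul_eq_mul, mul_one]
  have hu : IsUnit (1 + ((d - 1) • φ₁) v) := by
    rw [hf, add_sub_cancel]
    exact hd0.isUnit
  have hn : Algebra.norm F (1 + ((d - 1) • φ₁) v) = 1 := by
    rw [hf, add_sub_cancel]
    exact hd
  obtain ⟨δ, hδM, hδ⟩ : ∃ δ ∈ c.M, ∀ x : V k L, δ x = x + ((d - 1) * φ₁ x) • v :=
    ⟨_, mem_dil c ((d - 1) • φ₁) v hu hn, fun x => by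
      show (LinearEquiv.dilatransvection hu) x = _
      rw [LinearEquiv.dilatransvection.apply, LinearMap.smul_apply, smul_eq_mul]⟩
  have hδv : ∀ a : L, δ (a • v) = (d * a) • v := by
    intro a
    rw [hδ, map_smul, hφ₁, smul_eq_mul, mul_one, ← add_smul]
    congr 1
    ring
  have hδinv : ∀ a : L, δ⁻¹ (a • v) = (d⁻¹ * a) • v := by
    intro a
    apply δ.injective
    rw [inv_apply', hδv, ← mul_assoc, mul_inv_cancel₀ hd0, one_mul]
  obtain ⟨h', hh'M, hh'v, hh'ψ⟩ : ∃ h' ∈ c.M,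
      (∀ a : L, h' (a • v) = ((d * (d⁻¹ * a - b (d⁻¹ * a) • e)) +
        b (d * (d⁻¹ * a - b (d⁻¹ * a) • e)) • e) • v) ∧ ∀ y, ψ (h' y) = ψ y := by
    refine ⟨T * δ * T⁻¹ * δ⁻¹, c.M.mul_mem (c.M.mul_mem (c.M.mul_mem hTM hδM) (c.M.inv_mem hTM))
      (c.M.inv_mem hδM), ?_, ?_⟩
    · intro a
      rw [LinearEquiv.mul_apply, LinearEquiv.mul_apply, LinearEquiv.mul_apply, hδinv, hTinv, hδv,
        hT]
    · intro y
      rw [LinearEquiv.mul_apply, LinearEquiv.mul_apply, LinearEquiv.mul_apply]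
      obtain ⟨y', hy'⟩ : ∃ y', y' = δ⁻¹ y := ⟨_, rfl⟩
      obtain ⟨y'', hy''⟩ : ∃ y'', y'' = T⁻¹ y' := ⟨_, rfl⟩
      have h1 : δ y' = y := by rw [hy', inv_apply']
      have h2 : T y'' = y' := by rw [hy'', inv_apply']
      rw [← hy', ← hy'', hδ y'', map_add, hT, h2, map_add, map_smul, hψ, smul_zero, add_zero]
      rw [← h1, hδ y', map_add, map_smul, hψ, smul_zero, add_zero]
  have h0 : ((d * c₀) • ψ) v = 0 := by rw [LinearMap.smul_apply, hψ, smul_zero]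
  obtain ⟨t, htM, ht⟩ : ∃ t ∈ c.M, ∀ x : V k L, t x = x + ((d * c₀) * ψ x) • v :=
    ⟨_, mem_tv c ((d * c₀) • ψ) v h0, fun x => by
      show (LinearEquiv.transvection h0) x = _
      rw [LinearEquiv.transvection.apply, LinearMap.smul_apply, smul_eq_mul]⟩
  refine ⟨h' * t * h'⁻¹, c.M.mul_mem (c.M.mul_mem hh'M htM) (c.M.inv_mem hh'M), fun x => ?_⟩
  obtain ⟨y, hy⟩ : ∃ y, y = h'⁻¹ x := ⟨_, rfl⟩
  have h1 : h' y = x := by rw [hy, inv_apply']
  have h2 : ψ y = ψ x := by rw [← h1, hh'ψ]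
  have h3 : d⁻¹ * (d * c₀ * ψ x) = c₀ * ψ x := by
    rw [mul_assoc, ← mul_assoc d⁻¹, inv_mul_cancel₀ hd0, one_mul]
  rw [LinearEquiv.mul_apply, LinearEquiv.mul_apply, ← hy, ht, map_add, hh'v, h1, nu_apply, h2, h3]

end Cfsg.Agent.Lib.Helper14.GFK2COMM
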