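import Mathlib

/-!
# (D5) A larger abelian subgroup when the commutator map is not surjective modulo the fixed part

Leaf lemma for S3070 (requested by helper67, board post 1215).
-/

namespace Cfsg.Agent.Lib.Helper14.Gl5

open Subgroup

/-- Pairwise commuting generators generate a commutative subgroup. -/
lemma comm_closure {G : Type*} [Group G] {S : Set G} (h : ∀ a ∈ S, ∀ b ∈ S, a * b = b * a) :
    ∀ a ∈ closure S, ∀ b ∈ closure S, a * b = b * a := by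
  have h1 : closure S ≤ centralizer S :=
    (closure_le _).2 (fun a ha => mem_centralizer_iff.2 (fun b hb => h b hb a ha))
  have h2 : closure S ≤ centralizer (closure S : Set G) :=
    (closure_le _).2 (fun a ha => mem_centralizer_iff.2
      (fun b hb => ((mem_centralizer_iff.1 (h1 hb)) a ha).symm))
  intro a ha b hb
  exact ((mem_centralizer_iff.1 (h2 ha)) b hb).symm

theorem exists_larger_of_not_surj {G : Type*} [Group G] [Finite G] (A : Subgroup G)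
    (hAab : ∀ x ∈ A, ∀ y ∈ A, x * y = y * x) (x : G)
    (hM : ∀ g ∈ A, ∀ h ∈ A, (x⁻¹ * g⁻¹ * x * g) * (x⁻¹ * h⁻¹ * x * h)
      = (x⁻¹ * h⁻¹ * x * h) * (x⁻¹ * g⁻¹ * x * g))
    (m : G) (hm : m ∈ Subgroup.closure {y | ∃ g ∈ A, y = x⁻¹ * g⁻¹ * x * g})
    (hns : ∀ g ∈ A, ∀ z ∈ Subgroup.closure {y | ∃ g ∈ A, y = x⁻¹ * g⁻¹ * x * g},
      (∀ h ∈ A, h * z = z * h) → m ≠ (x⁻¹ * g⁻¹ * x * g) * z) :
    ∃ T : Subgroup G, (∀ s ∈ T, ∀ t ∈ T, s * t = t * s) ∧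
      T ≤ A ⊔ Subgroup.closure {y | ∃ g ∈ A, y = x⁻¹ * g⁻¹ * x * g} ∧
      Nat.card A < Nat.card T := by
  classical
  set S : Set G := {y | ∃ g ∈ A, y = x⁻¹ * g⁻¹ * x * g} with hS
  set M : Subgroup G := closure S with hMdef
  have hφM : ∀ g ∈ A, x⁻¹ * g⁻¹ * x * g ∈ M := fun g hg => subset_closure ⟨g, hg, rfl⟩
  have hMab : ∀ a ∈ M, ∀ b ∈ M, a * b = b * a := by
    apply comm_closure
    rintro a ⟨g, hg, rfl⟩ b ⟨h, hh, rfl⟩
    exact hM g hg h hh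
  set C : Subgroup G := A ⊓ centralizer (M : Set G) with hC
  have hCA : C ≤ A := inf_le_left
  have hCM : ∀ c ∈ C, ∀ μ ∈ M, μ * c = c * μ :=
    fun c hc μ hμ => mem_centralizer_iff.1 hc.2 μ hμ
  have key : ∀ g h : G, x⁻¹ * (g * h)⁻¹ * x * (g * h)
      = (x⁻¹ * h⁻¹ * x * h) * (h⁻¹ * (x⁻¹ * g⁻¹ * x * g) * h) := by
    intro g h; group
  -- fact 1
  have f1 : ∀ u ∈ A, (∀ h ∈ A, h * (x⁻¹ * u⁻¹ * x * u) = (x⁻¹ * u⁻¹ * x * u) * h) →
      u ∈ C := by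
    intro u hu hc
    refine ⟨hu, ?_⟩
    have hS' : S ⊆ centralizer ({u} : Set G) := by
      rintro y ⟨h, hh, rfl⟩
      rw [SetLike.mem_coe, mem_centralizer_iff]
      intro k hk
      rw [Set.mem_singleton_iff] at hk
      subst hk
      have e1 := key h k
      have e2 := key k h
      have e3 : h * k = k * h := hAab h hh k hu
      rw [e3] at e1
      have e4 : h⁻¹ * (x⁻¹ * k⁻¹ * x * k) * h = x⁻¹ * k⁻¹ * x * k := by
        rw [mul_assoc, ← hc h hh, inv_mul_cancel_left]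
      rw [e4, hM h hh k hu] at e2
      have e5 : k⁻¹ * (x⁻¹ * h⁻¹ * x * h) * k = x⁻¹ * h⁻¹ * x * h :=
        mul_left_cancel (e1.symm.trans e2)
      calc k * (x⁻¹ * h⁻¹ * x * h) = k * (k⁻¹ * (x⁻¹ * h⁻¹ * x * h) * k) := by rw [e5]
        _ = (x⁻¹ * h⁻¹ * x * h) * k := by group
    have hMu : M ≤ centralizer ({u} : Set G) := (closure_le _).2 hS'
    show u ∈ centralizer (M : Set G)
    rw [mem_centralizer_iff]
    intro μ hμ
    exact ((mem_centralizer_iff.1 (hMu hμ)) u rfl).symm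
  -- fact 2
  have f2 : ∀ g ∈ A, ∀ g' ∈ A,
      (∀ h ∈ A, h * ((x⁻¹ * g⁻¹ * x * g)⁻¹ * (x⁻¹ * g'⁻¹ * x * g'))
        = ((x⁻¹ * g⁻¹ * x * g)⁻¹ * (x⁻¹ * g'⁻¹ * x * g')) * h) → g⁻¹ * g' ∈ C := by
    intro g hg g' hg' hz
    have hu : g⁻¹ * g' ∈ A := A.mul_mem (A.inv_mem hg) hg'
    have e1 := key (g⁻¹ * g') g
    have e2 : g⁻¹ * g' * g = g' := by rw [mul_assoc, hAab g' hg' g hg, inv_mul_cancel_left]
    rw [e2] at e1
    have e4 : (x⁻¹ * g⁻¹ * x * g)⁻¹ * (x⁻¹ * g'⁻¹ * x * g')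
        = g⁻¹ * (x⁻¹ * (g⁻¹ * g')⁻¹ * x * (g⁻¹ * g')) * g := by
      rw [e1, inv_mul_cancel_left]
    have e3 : x⁻¹ * (g⁻¹ * g')⁻¹ * x * (g⁻¹ * g')
        = (x⁻¹ * g⁻¹ * x * g)⁻¹ * (x⁻¹ * g'⁻¹ * x * g') := by
      have e5 := hz g hg
      rw [e4] at e5
      rw [e4]
      have e6 : (x⁻¹ * (g⁻¹ * g')⁻¹ * x * (g⁻¹ * g')) * g
          = (g⁻¹ * (x⁻¹ * (g⁻¹ * g')⁻¹ * x * (g⁻¹ * g')) * g) * g := by
        rw [← e5]; group
      exact mul_right_cancel e6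
    apply f1 _ hu
    intro h hh
    rw [e3]
    exact hz h hh
  -- coset representatives
  let r : G → G := fun g => (Quotient.out (g : G ⧸ C) : G)
  have hr : ∀ g, (r g)⁻¹ * g ∈ C := fun g => by
    have h1 : ((r g : G) : G ⧸ C) = (g : G ⧸ C) := QuotientGroup.out_eq' _
    exact QuotientGroup.eq.1 h1
  have hrA : ∀ g ∈ A, r g ∈ A := fun g hg => by
    have h1 := hCA (hr g)
    have h2 : r g = g * ((r g)⁻¹ * g)⁻¹ := by group
    rw [h2]; exact A.mul_mem hg (A.inv_mem h1)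
  have hreq : ∀ g g', g⁻¹ * g' ∈ C → r g = r g' := fun g g' h => by
    have h1 : (g : G ⧸ C) = (g' : G ⧸ C) := QuotientGroup.eq.2 h
    show (Quotient.out (g : G ⧸ C) : G) = (Quotient.out (g' : G ⧸ C) : G)
    rw [h1]
  have hrr : ∀ k, r (r k) = r k := fun k => hreq _ _ (hr k)
  have hTab : ∀ s ∈ C ⊔ M, ∀ t ∈ C ⊔ M, s * t = t * s := by
    have h1 : C ⊔ M = closure ((C : Set G) ∪ M) := by
      rw [Subgroup.closure_union, closure_eq, closure_eq]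
    rw [h1]
    apply comm_closure
    rintro a (ha | ha) b (hb | hb)
    · exact hAab a (hCA ha) b (hCA hb)
    · exact (hCM a ha b hb).symm
    · exact hCM b hb a ha
    · exact hMab a ha b hb
  refine ⟨C ⊔ M, hTab, sup_le_sup_right hCA M, ?_⟩
  have hΨmem : ∀ g : A, (x⁻¹ * (r (g : G))⁻¹ * x * (r (g : G))) * ((r (g : G))⁻¹ * (g : G))
      ∈ C ⊔ M := fun g =>
    (C ⊔ M).mul_mem (mem_sup_right (hφM _ (hrA g g.2))) (mem_sup_left (hr g))
  let Ψ : A → (C ⊔ M : Subgroup G) := fun g => ⟨_, hΨmem g⟩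
  have hinj : Function.Injective Ψ := by
    intro g g' h
    have h' : (x⁻¹ * (r (g : G))⁻¹ * x * (r (g : G))) * ((r (g : G))⁻¹ * (g : G))
        = (x⁻¹ * (r (g' : G))⁻¹ * x * (r (g' : G))) * ((r (g' : G))⁻¹ * (g' : G)) :=
      congrArg Subtype.val h
    have hz : (x⁻¹ * (r (g : G))⁻¹ * x * (r (g : G)))⁻¹ * (x⁻¹ * (r (g' : G))⁻¹ * x * (r (g' : G)))
        = ((r (g : G))⁻¹ * (g : G)) * ((r (g' : G))⁻¹ * (g' : G))⁻¹ := by
      rw [eq_mul_inv_iff_mul_eq, mul_assoc, ← h', inv_mul_cancel_left]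
    have hzC : ((r (g : G))⁻¹ * (g : G)) * ((r (g' : G))⁻¹ * (g' : G))⁻¹ ∈ C :=
      C.mul_mem (hr g) (C.inv_mem (hr g'))
    have h2 : (r (g : G))⁻¹ * r (g' : G) ∈ C :=
      f2 (r g) (hrA g g.2) (r g') (hrA g' g'.2)
        (fun h hh => by rw [hz]; exact hAab h hh _ (hCA hzC))
    have h3 : r (r (g : G)) = r (r (g' : G)) := hreq _ _ h2
    rw [hrr, hrr] at h3
    rw [h3] at h'
    have h5 : (r (g' : G))⁻¹ * (g : G) = (r (g' : G))⁻¹ * (g' : G) := mul_left_cancel h'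
    exact Subtype.ext (mul_left_cancel h5)
  have hmT : m ∈ C ⊔ M := mem_sup_right hm
  have hmiss : (⟨m, hmT⟩ : (C ⊔ M : Subgroup G)) ∉ Set.range Ψ := by
    rintro ⟨g, hg⟩
    have h' : (x⁻¹ * (r (g : G))⁻¹ * x * (r (g : G))) * ((r (g : G))⁻¹ * (g : G)) = m :=
      congrArg Subtype.val hg
    have hcM : (r (g : G))⁻¹ * (g : G) ∈ M := by
      have h1 : (r (g : G))⁻¹ * (g : G)
          = (x⁻¹ * (r (g : G))⁻¹ * x * (r (g : G)))⁻¹ * m := by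
        rw [← h', inv_mul_cancel_left]
      rw [h1]; exact M.mul_mem (M.inv_mem (hφM _ (hrA g g.2))) hm
    exact hns (r g) (hrA g g.2) _ hcM (fun h hh => hAab h hh _ (hCA (hr g))) h'.symm
  let _ : Fintype A := Fintype.ofFinite _
  let _ : Fintype (C ⊔ M : Subgroup G) := Fintype.ofFinite _
  rw [Nat.card_eq_fintype_card, Nat.card_eq_fintype_card]
  exact Fintype.card_lt_of_injective_of_notMem Ψ hinj hmiss

end Cfsg.Agent.Lib.Helper14.Gl5
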