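import Mathlib
import Cfsg.Agent.Lib.Helper24.NatStmt

/-!
# S3009 piece DECH1: `|M| ≤ |Wp|²`, irreducible, nontrivial gives `M = Wp ⊕ Wm`
-/

set_option autoImplicit false

namespace Cfsg.Agent.Lib.Helper14.NatDECH1

open Cfsg.Agent.Lib.Helper24.NatStmt

universe u

theorem main : DecH1.{u} := by
  intro hGen F _ M _ _ _ hirr hnt hcard
  classical
  -- the fixed points of the whole group are trivial
  have hfix0 : ∀ m : M, (∀ g : SL2 F, g • m = m) → m = 0 := by
    let N : AddSubgroup M :=
      { carrier := {m | ∀ g : SL2 F, g • m = m}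
        zero_mem' := fun g => smul_zero g
        add_mem' := fun {a b} ha hb g => by rw [smul_add, ha g, hb g]
        neg_mem' := fun {a} ha g => by rw [smul_neg, ha g] }
    have hNinv : ∀ (g : SL2 F), ∀ m ∈ N, g • m ∈ N := by
      intro g m hm h
      have h1 : g • m = m := hm g
      rw [h1]
      exact hm h
    rcases hirr N hNinv with h | h
    · intro m hm
      have h1 : m ∈ N := hm
      rw [h] at h1
      exact (AddSubgroup.mem_bot).1 h1
    · exfalso
      obtain ⟨g, m, hgm⟩ := hnt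
      have h1 : m ∈ N := by rw [h]; trivial
      exact hgm (h1 g)
  have hinf : Wp F M ⊓ Wm F M = ⊥ := by
    rw [AddSubgroup.eq_bot_iff_forall]
    rintro m ⟨hmp, hmm⟩
    apply hfix0
    intro g
    have hg := hGen F g
    induction hg using Subgroup.closure_induction with
    | mem y hy =>
      rcases hy with ⟨x, rfl⟩ | ⟨x, rfl⟩
      · exact hmp x
      · exact hmm x
    | one => exact one_smul _ m
    | mul a b _ _ ha hb => rw [mul_smul, hb, ha]
    | inv a _ ha =>
      rw [inv_smul_eq_iff]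
      exact ha.symm
  refine ⟨hinf, ?_⟩
  -- `uw 1` maps `Wp` into `Wm`
  have hw : ∀ m ∈ Wp F M, uw (1 : F) • m ∈ Wm F M := by
    intro m hm y
    have e : ub y * uw (1 : F) = uw (1 : F) * ua (-y) := by
      rw [uw_mul_ua one_ne_zero]
      simp
    rw [← mul_smul, e, mul_smul, hm (-y)]
  have hle : Nat.card (Wp F M) ≤ Nat.card (Wm F M) := by
    refine Nat.card_le_card_of_injective
      (fun a : Wp F M => (⟨uw (1 : F) • (a : M), hw a a.2⟩ : Wm F M)) ?_
    intro a b hab
    have h1 : uw (1 : F) • (a : M) = uw (1 : F) • (b : M) := congrArg Subtype.val hab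
    exact Subtype.ext (MulAction.injective _ h1)
  have hle2 : Nat.card (Wp F M) * Nat.card (Wm F M) ≤
      Nat.card (Wp F M ⊔ Wm F M : AddSubgroup M) := by
    rw [← Nat.card_prod]
    refine Nat.card_le_card_of_injective
      (fun ab : Wp F M × Wm F M => (⟨(ab.1 : M) + ab.2,
        AddSubgroup.mem_sup.2 ⟨ab.1, ab.1.2, ab.2, ab.2.2, rfl⟩⟩ :
          (Wp F M ⊔ Wm F M : AddSubgroup M))) ?_
    rintro ⟨a, b⟩ ⟨a', b'⟩ h
    have h1 : (a : M) + b = a' + b' := congrArg Subtype.val h
    have h2 : (a : M) - a' = b' - b := by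
      rw [sub_eq_sub_iff_add_eq_add, h1, add_comm]
    have h3 : (a : M) - a' ∈ Wp F M ⊓ Wm F M :=
      ⟨(Wp F M).sub_mem (SetLike.coe_mem a) (SetLike.coe_mem a'), by
        rw [h2]
        exact (Wm F M).sub_mem (SetLike.coe_mem b') (SetLike.coe_mem b)⟩
    rw [hinf] at h3
    have h4 : (a : M) = a' := sub_eq_zero.1 ((AddSubgroup.mem_bot).1 h3)
    have h5 : (b : M) = b' := by
      rw [h4] at h1
      exact add_left_cancel h1
    exact Prod.ext (Subtype.ext h4) (Subtype.ext h5)
  apply AddSubgroup.eq_top_of_le_card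
  calc Nat.card M ≤ Nat.card (Wp F M) ^ 2 := hcard
    _ = Nat.card (Wp F M) * Nat.card (Wp F M) := sq _
    _ ≤ Nat.card (Wp F M) * Nat.card (Wm F M) := Nat.mul_le_mul_left _ hle
    _ ≤ _ := hle2

end Cfsg.Agent.Lib.Helper14.NatDECH1
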