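import Mathlib
import Cfsg.Agent.Lib.Helper24.NatStmt

/-!
# S3009 piece FIX: a nonzero fixed point of `{ua x}` on `M / Wp`, realised in `Wm`
-/

set_option autoImplicit false

namespace Cfsg.Agent.Lib.Helper14.NatFIX

open Cfsg.Agent.Lib.Helper24.NatStmt

universe u

theorem main : Fix.{u} := by
  intro p hp F _ _ n hF M _ _ _ hpM hdec hWm
  classical
  have hpp : p.Prime := hp.out
  -- the additive maps `m ↦ ua x • m`
  let f : Multiplicative F → (M →+ M) := fun x =>
    DistribSMul.toAddMonoidHom M (ua (Multiplicative.toAdd x))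
  have hfa : ∀ (x : Multiplicative F) (m : M), f x m = ua (Multiplicative.toAdd x) • m :=
    fun _ _ => rfl
  have hf : ∀ x, Wp F M ≤ (Wp F M).comap (f x) := by
    intro x m hm
    show f x m ∈ Wp F M
    rw [hfa, hm _]
    exact hm
  -- the induced action on `M ⧸ Wp`
  let act : MulAction (Multiplicative F) (M ⧸ Wp F M) :=
    { smul := fun x q => QuotientAddGroup.map _ _ (f x) (hf x) q
      one_smul := by
        intro q
        induction q using QuotientAddGroup.induction_on with
        | H m =>
          show QuotientAddGroup.map _ _ (f 1) (hf 1) (m : M ⧸ Wp F M) = m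
          rw [QuotientAddGroup.map_mk, hfa]
          show ((ua (0 : F) • m : M) : M ⧸ Wp F M) = m
          rw [ua_zero, one_smul]
      mul_smul := by
        intro x y q
        induction q using QuotientAddGroup.induction_on with
        | H m =>
          show QuotientAddGroup.map _ _ (f (x * y)) (hf (x * y)) (m : M ⧸ Wp F M) =
            QuotientAddGroup.map _ _ (f x) (hf x)
              (QuotientAddGroup.map _ _ (f y) (hf y) (m : M ⧸ Wp F M))
          rw [QuotientAddGroup.map_mk, QuotientAddGroup.map_mk, QuotientAddGroup.map_mk, hfa,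
            hfa, hfa]
          show ((ua (Multiplicative.toAdd x + Multiplicative.toAdd y) • m : M) : M ⧸ Wp F M) = _
          rw [ua_add, mul_smul] }
  have hact : ∀ (x : Multiplicative F) (m : M),
      x • (m : M ⧸ Wp F M) = ((ua (Multiplicative.toAdd x) • m : M) : M ⧸ Wp F M) := by
    intro x m
    show QuotientAddGroup.map _ _ (f x) (hf x) (m : M ⧸ Wp F M) = _
    rw [QuotientAddGroup.map_mk, hfa]
  -- `Multiplicative F` is a `p`-group
  have hU : IsPGroup p (Multiplicative F) := by
    refine IsPGroup.of_card (n := n) ?_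
    rw [← hF, ← Nat.card_eq_fintype_card]
    rfl
  -- `p` divides the order of `M ⧸ Wp`
  obtain ⟨b0, hb0, hb00⟩ : ∃ b ∈ Wm F M, b ≠ 0 := by
    by_contra hcon
    push Not at hcon
    exact hWm ((AddSubgroup.eq_bot_iff_forall _).2 hcon)
  have hb0p : b0 ∉ Wp F M := by
    intro h
    have : b0 ∈ Wp F M ⊓ Wm F M := ⟨h, hb0⟩
    rw [hdec.1] at this
    exact hb00 ((AddSubgroup.mem_bot).1 this)
  have hq0 : (b0 : M ⧸ Wp F M) ≠ 0 := by
    intro h
    exact hb0p ((QuotientAddGroup.eq_zero_iff b0).1 h)
  have hpq0 : p • (b0 : M ⧸ Wp F M) = 0 := by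
    rw [← QuotientAddGroup.mk_nsmul, hpM]
    rfl
  have hdvd : p ∣ Nat.card (M ⧸ Wp F M) := by
    have h1 := addOrderOf_eq_prime hpq0 hq0
    rw [← h1]
    exact addOrderOf_dvd_natCard _
  have h0fix : (0 : M ⧸ Wp F M) ∈ MulAction.fixedPoints (Multiplicative F) (M ⧸ Wp F M) := by
    intro x
    have := hact x 0
    rw [smul_zero] at this
    exact this
  obtain ⟨q, hq, hq0'⟩ :=
    hU.exists_fixed_point_of_prime_dvd_card_of_fixed_point (M ⧸ Wp F M) hdvd h0fix
  induction q using QuotientAddGroup.induction_on with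
  | H m =>
    -- decompose `m = a + b`
    have hm : m ∈ Wp F M ⊔ Wm F M := by rw [hdec.2]; trivial
    obtain ⟨a, ha, b, hb, rfl⟩ := AddSubgroup.mem_sup.1 hm
    have hfixm : ∀ x : F, ua x • (a + b) - (a + b) ∈ Wp F M := by
      intro x
      have h1 := hq (Multiplicative.ofAdd x)
      rw [hact] at h1
      have h2 := QuotientAddGroup.eq.1 h1
      have h3 : ua x • (a + b) - (a + b) = -(-(ua (Multiplicative.toAdd (Multiplicative.ofAdd x))
          • (a + b)) + (a + b)) := by
        rw [toAdd_ofAdd]
        abel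
      rw [h3]
      exact (Wp F M).neg_mem h2
    refine ⟨b, hb, ?_, ?_⟩
    · rintro rfl
      apply hq0'
      rw [add_zero]
      exact ((QuotientAddGroup.eq_zero_iff a).2 ha).symm
    · intro x
      have h1 := hfixm x
      have h2 : ua x • (a + b) - (a + b) = dX x b := by
        unfold dX
        rw [smul_add, ha x]
        abel
      rw [h2] at h1
      exact h1

end Cfsg.Agent.Lib.Helper14.NatFIX
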