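import Mathlib
import Cfsg.Agent.Lib.Helper24.NatStmt

/-!
# S3009 piece NAT3: the natural module
-/

set_option autoImplicit false

namespace Cfsg.Agent.Lib.Helper14.NatNAT3

open Cfsg.Agent.Lib.Helper24.NatStmt

universe u

theorem ua_mulVec {F : Type*} [Field F] (x : F) (v : Fin 2 → F) :
    ((ua x : SL2 F) : Matrix (Fin 2) (Fin 2) F).mulVec v = ![v 0 + x * v 1, v 1] := by
  rw [ua_coe]
  ext i
  fin_cases i <;> simp [Matrix.mulVec, dotProduct, Fin.sum_univ_two]

theorem ub_mulVec {F : Type*} [Field F] (x : F) (v : Fin 2 → F) :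
    ((ub x : SL2 F) : Matrix (Fin 2) (Fin 2) F).mulVec v = ![v 0, x * v 0 + v 1] := by
  rw [ub_coe]
  ext i
  fin_cases i <;> simp [Matrix.mulVec, dotProduct, Fin.sum_univ_two]

theorem main : Nat3.{u} := by
  intro hGen F _ M _ _ hirr hnt hdec hq hqm h1 h2
  classical
  obtain ⟨hphi1, hphiadd, hphimul, hdYphi⟩ := h2
  have theta_add : ∀ a b : M, theta F (a + b) = theta F a + theta F b := by
    intro a b
    unfold theta dY
    rw [smul_add]
    abel
  have theta_zero : theta F (0 : M) = 0 := by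
    unfold theta dY
    simp
  have dX_neg : ∀ (x : F) (a : M), dX x (-a) = - dX x a := by
    intro x a
    unfold dX
    rw [smul_neg]
    abel
  have phi_mem : ∀ (x : F) (m : M), phi x m ∈ Wp F M := fun x m => (Wp F M).neg_mem (hq x _)
  have theta_mem : ∀ m : M, theta F m ∈ Wm F M := fun m => (Wm F M).neg_mem (hqm _ m)
  have phi_zero_right : ∀ x : F, phi x (0 : M) = 0 := by
    intro x
    unfold phi dX dY
    simp
  have phi_eq : ∀ (x : F) (m : M), phi x m = dX x (theta F m) := by
    intro x m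
    unfold phi theta
    rw [dX_neg]
  -- `Wp ≠ ⊥`
  obtain ⟨w0, hw0, hw00⟩ : ∃ w ∈ Wp F M, w ≠ 0 := by
    by_contra hcon
    push Not at hcon
    have hall : ∀ (x : F) (m : M), ua x • m = m := by
      intro x m
      have h := hcon _ (hq x m)
      unfold dX at h
      exact sub_eq_zero.1 h
    have hall' : ∀ m : M, m = 0 := fun m => hcon m (fun x => hall x m)
    obtain ⟨g, m, hgm⟩ := hnt
    apply hgm
    rw [hall' m, smul_zero]
  have phi_zero_left : phi (0 : F) w0 = 0 := by
    have h := hphiadd 0 0 w0 hw0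
    rw [add_zero] at h
    exact add_eq_left.1 h.symm
  -- the map
  let ψ' : (Fin 2 → F) →+ M :=
    { toFun := fun v => phi (v 0) w0 + theta F (phi (v 1) w0)
      map_zero' := by
        show phi (0 : F) w0 + theta F (phi (0 : F) w0) = 0
        rw [phi_zero_left, theta_zero, add_zero]
      map_add' := by
        intro v w
        show phi (v 0 + w 0) w0 + theta F (phi (v 1 + w 1) w0) =
          phi (v 0) w0 + theta F (phi (v 1) w0) + (phi (w 0) w0 + theta F (phi (w 1) w0))
        rw [hphiadd _ _ w0 hw0, hphiadd _ _ w0 hw0, theta_add]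
        abel }
  have hψ : ∀ v : Fin 2 → F, ψ' v = phi (v 0) w0 + theta F (phi (v 1) w0) := fun _ => rfl
  -- equivariance for the generators
  have hua : ∀ (x : F) (v : Fin 2 → F),
      ψ' (((ua x : SL2 F) : Matrix (Fin 2) (Fin 2) F).mulVec v) = ua x • ψ' v := by
    intro x v
    rw [ua_mulVec, hψ, hψ]
    simp only [Matrix.cons_val_zero, Matrix.cons_val_one]
    rw [hphiadd _ _ w0 hw0, hphimul x (v 1) w0 hw0, smul_add, phi_mem (v 0) w0 x]
    have h3 : ua x • theta F (phi (v 1) w0) =
        theta F (phi (v 1) w0) + dX x (theta F (phi (v 1) w0)) := by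
      unfold dX
      abel
    rw [h3, ← phi_eq]
    abel
  have hub : ∀ (x : F) (v : Fin 2 → F),
      ψ' (((ub x : SL2 F) : Matrix (Fin 2) (Fin 2) F).mulVec v) = ub x • ψ' v := by
    intro x v
    rw [ub_mulVec, hψ, hψ]
    simp only [Matrix.cons_val_zero, Matrix.cons_val_one]
    rw [hphiadd _ _ w0 hw0, hphimul x (v 0) w0 hw0, smul_add, theta_mem (phi (v 1) w0) x,
      theta_add]
    have h3 : ub x • phi (v 0) w0 = phi (v 0) w0 + dY x (phi (v 0) w0) := by
      unfold dY
      abel
    rw [h3, hdYphi x _ (phi_mem (v 0) w0)]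
    abel
  -- equivariance for all elements
  have hall : ∀ (g : SL2 F) (v : Fin 2 → F),
      ψ' ((g : Matrix (Fin 2) (Fin 2) F).mulVec v) = g • ψ' v := by
    intro g
    have hg := hGen F g
    induction hg using Subgroup.closure_induction with
    | mem y hy =>
      rcases hy with ⟨x, rfl⟩ | ⟨x, rfl⟩
      · exact hua x
      · exact hub x
    | one =>
      intro v
      rw [Matrix.SpecialLinearGroup.coe_one, Matrix.one_mulVec, one_smul]
    | mul a b _ _ ha hb =>
      intro v
      rw [Matrix.SpecialLinearGroup.coe_mul, ← Matrix.mulVec_mulVec, ha, hb, mul_smul]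
    | inv a _ ha =>
      intro v
      have h3 := ha (((a⁻¹ : SL2 F) : Matrix (Fin 2) (Fin 2) F).mulVec v)
      rw [Matrix.mulVec_mulVec, ← Matrix.SpecialLinearGroup.coe_mul, mul_inv_cancel,
        Matrix.SpecialLinearGroup.coe_one, Matrix.one_mulVec] at h3
      rw [h3, inv_smul_smul]
  -- surjectivity
  have hsurj : Function.Surjective ψ' := by
    have hinv : ∀ (g : SL2 F), ∀ m ∈ ψ'.range, g • m ∈ ψ'.range := by
      rintro g m ⟨v, rfl⟩
      exact ⟨_, hall g v⟩
    have hne : ψ'.range ≠ ⊥ := by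
      intro h
      have h3 : ψ' ![1, 0] ∈ ψ'.range := ⟨_, rfl⟩
      rw [h] at h3
      have h4 : ψ' ![1, 0] = w0 := by
        rw [hψ]
        simp only [Matrix.cons_val_zero, Matrix.cons_val_one]
        rw [hphi1 w0 hw0, phi_zero_left, theta_zero, add_zero]
      rw [h4] at h3
      exact hw00 ((AddSubgroup.mem_bot).1 h3)
    rcases hirr ψ'.range hinv with h | h
    · exact absurd h hne
    · exact AddMonoidHom.range_eq_top.1 h
  -- injectivity
  have hphi_inj : ∀ x : F, phi x w0 = 0 → x = 0 := by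
    intro x hx
    by_contra hx0
    apply hw00
    have h3 := hphimul x⁻¹ x w0 hw0
    rw [inv_mul_cancel₀ hx0, hphi1 w0 hw0, hx, phi_zero_right] at h3
    exact h3
  have htheta_inj : ∀ m ∈ Wp F M, theta F m = 0 → m = 0 := by
    intro m hm h
    have h3 := (h1 1 one_ne_zero).1 m hm
    have h4 : dY (-(1 : F)⁻¹) m = 0 := by
      rw [inv_one]
      unfold theta at h
      exact neg_eq_zero.1 h
    rw [h4] at h3
    have h5 : dX (1 : F) (0 : M) = 0 := by
      unfold dX
      simp
    rw [h5] at h3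
    exact neg_eq_zero.1 h3.symm
  have hinj : Function.Injective ψ' := by
    rw [injective_iff_map_eq_zero]
    intro v hv
    rw [hψ] at hv
    have h3 : phi (v 0) w0 = - theta F (phi (v 1) w0) := eq_neg_of_add_eq_zero_left hv
    have h4 : phi (v 0) w0 ∈ Wp F M ⊓ Wm F M :=
      ⟨phi_mem _ _, by rw [h3]; exact (Wm F M).neg_mem (theta_mem _)⟩
    rw [hdec.1] at h4
    have h5 : phi (v 0) w0 = 0 := (AddSubgroup.mem_bot).1 h4
    have h6 : theta F (phi (v 1) w0) = 0 := by
      rw [h5] at h3
      exact neg_eq_zero.1 h3.symm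
    have h7 : phi (v 1) w0 = 0 := htheta_inj _ (phi_mem _ _) h6
    ext i
    fin_cases i
    · exact hphi_inj _ h5
    · exact hphi_inj _ h7
  refine ⟨(AddEquiv.ofBijective ψ' ⟨hinj, hsurj⟩).symm, ?_⟩
  intro g m
  obtain ⟨v, rfl⟩ := hsurj m
  rw [AddEquiv.symm_apply_eq]
  have h3 : (AddEquiv.ofBijective ψ' ⟨hinj, hsurj⟩).symm (ψ' v) = v := by
    rw [AddEquiv.symm_apply_eq]
    rfl
  rw [h3]
  exact (hall g v).symm

end Cfsg.Agent.Lib.Helper14.NatNAT3
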