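import Mathlib
import Cfsg.Agent.Lib.Helper1.PDStmt
import Cfsg.Agent.S0215

set_option autoImplicit false

/-!
# S4020 / ISO (call by helper1): an element of order 4 plus (D) gives an isolated involution,
hence (Glauberman's `Z*`, landed S0215) a normal subgroup of odd order.
-/

namespace Cfsg.Agent.Lib.Helper14.PDISO

open Cfsg.Agent.Lib.Helper1.PDStmt

universe u

theorem main (hU : Uniq.{u}) : Iso.{u} := by
  intro G _ _ hD hq4
  obtain ⟨q, hq⟩ := hq4
  have hq2 : IsPGroup 2 ↥(Subgroup.zpowers q) := by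
    apply IsPGroup.of_card (n := 2)
    rw [Nat.card_zpowers, hq]
    norm_num
  obtain ⟨S, hS⟩ := hq2.exists_le_sylow
  have hqS : q ∈ (S : Subgroup G) := hS (Subgroup.mem_zpowers q)
  have hq2ne : q ^ 2 ≠ 1 := by
    intro h
    have h2 := orderOf_dvd_of_pow_eq_one h
    rw [hq] at h2
    norm_num at h2
  obtain ⟨Z₀, hZS, hZcard, hZ⟩ := hU G hD 2 S ⟨q, hqS, hq2ne⟩
  have hto : orderOf (q ^ 2) = 2 := by
    rw [orderOf_pow_of_dvd (by norm_num) (by rw [hq]; norm_num), hq]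
  have htS : q ^ 2 ∈ (S : Subgroup G) := Subgroup.pow_mem _ hqS 2
  have htZ : q ^ 2 ∈ Z₀ := hZ _ htS hto
  have hZ2 : ∀ y ∈ Z₀, y = 1 ∨ y = q ^ 2 := by
    intro y hy
    have hne : (⟨q ^ 2, htZ⟩ : Z₀) ≠ 1 := by
      intro h
      exact hq2ne (congrArg Subtype.val h)
    have hmem : (⟨y, hy⟩ : Z₀) ∈ Subgroup.zpowers (⟨q ^ 2, htZ⟩ : Z₀) :=
      mem_zpowers_of_prime_card hZcard hne
    obtain ⟨k, hk⟩ := Subgroup.mem_zpowers_iff.mp hmem
    have hk' : (q ^ 2) ^ k = y := by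
      have := congrArg Subtype.val hk
      simpa using this
    rw [← hk', ← zpow_mod_orderOf, hto]
    rcases Int.emod_two_eq_zero_or_one k with h | h
    · left
      rw [show ((2 : ℕ) : ℤ) = 2 from rfl, h, zpow_zero]
    · right
      rw [show ((2 : ℕ) : ℤ) = 2 from rfl, h, zpow_one]
  refine ⟨q ^ 2, hto, ?_⟩
  apply Cfsg.Agent.S0215.result S (q ^ 2) hto htS
  intro g hg
  have ho : orderOf (g * q ^ 2 * g⁻¹) = 2 := by
    have h1 := orderOf_injective (MulAut.conj g).toMonoidHom (MulAut.conj g).injective (q ^ 2)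
    have h2 : (MulAut.conj g).toMonoidHom (q ^ 2) = g * q ^ 2 * g⁻¹ := rfl
    rw [h2] at h1
    rw [h1, hto]
  rcases hZ2 _ (hZ _ hg ho) with h | h
  · rw [h] at ho
    simp at ho
  · exact h

end Cfsg.Agent.Lib.Helper14.PDISO
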