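import Mathlib
import Cfsg.Prelude.Def_CaseTheorems
import Cfsg.Agent.Lib.Helper20.QD

set_option autoImplicit false

namespace Cfsg.Agent.Lib.Helper14.QDIso

open Cfsg Cfsg.Agent.Lib.Helper20.ZP Cfsg.Agent.Lib.Helper20.QD

variable {S : Type*} [Group S] {n : ℕ} {x y : S}

/-- the normal-form parametrisation of a quasi-dihedral group -/
def par (x y : S) (n : ℕ) (p : ZMod (2 ^ n) × Bool) : S :=
  if p.2 then X x n p.1 * y else X x n p.1

/-- the multiplication rule on parameters -/
def mrule (n : ℕ) (p q : ZMod (2 ^ n) × Bool) : ZMod (2 ^ n) × Bool :=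
  if p.2 then (p.1 + uu n * q.1, !q.2) else (p.1 + q.1, q.2)

lemma par_mrule (h : IsQD n x y) (p q : ZMod (2 ^ n) × Bool) :
    par x y n (mrule n p q) = par x y n p * par x y n q := by
  obtain ⟨i, b⟩ := p
  obtain ⟨j, c⟩ := q
  cases b <;> cases c <;>
    simp only [par, mrule, Bool.false_eq_true, if_false, if_true, Bool.not_false, Bool.not_true]
  · exact X_add h i j
  · exact (X_mul_Xy h i j).symm
  · exact (Xy_mul_X h i j).symm
  · exact (Xy_mul_Xy h i j).symm

lemma par_injective (h : IsQD n x y) : Function.Injective (par x y n) := by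
  rintro ⟨i, b⟩ ⟨j, b'⟩ he
  cases b <;> cases b' <;> simp only [par, Bool.false_eq_true, if_false, if_true] at he
  · rw [X_inj h] at he; rw [he]
  · exact absurd he.symm (Xy_ne_X h j i)
  · exact absurd he (Xy_ne_X h i j)
  · have := mul_right_cancel he
    rw [X_inj h] at this; rw [this]

lemma par_surjective (h : IsQD n x y) : Function.Surjective (par x y n) := by
  intro s
  obtain ⟨i, hi | hi⟩ := normal_form h s
  · exact ⟨(i, false), by simp [par, hi]⟩
  · exact ⟨(i, true), by simp [par, hi]⟩

lemma par_bijective (h : IsQD n x y) : Function.Bijective (par x y n) :=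
  ⟨par_injective h, par_surjective h⟩

lemma par_x (h : IsQD n x y) : par x y n (1, false) = x := by
  haveI : NeZero (2 ^ n) := ⟨by positivity⟩
  simp only [par, Bool.false_eq_true, if_false]
  exact zp_one h.hx

lemma par_y : par x y n (0, true) = y := by
  haveI : NeZero (2 ^ n) := ⟨by positivity⟩
  simp only [par, if_true]
  rw [X_zero, one_mul]

/-- Two quasi-dihedral groups with the same parameter are isomorphic, compatibly with the
standard generators. -/
theorem qd_iso {A B : Type*} [Group A] [Group B] (n : ℕ) (x y : A) (x' y' : B)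
    (h : Cfsg.Agent.Lib.Helper20.QD.IsQD n x y) (h' : Cfsg.Agent.Lib.Helper20.QD.IsQD n x' y') :
    ∃ e : A ≃* B, e x = x' ∧ e y = y' := by
  let eA : ZMod (2 ^ n) × Bool ≃ A := Equiv.ofBijective _ (par_bijective h)
  let eB : ZMod (2 ^ n) × Bool ≃ B := Equiv.ofBijective _ (par_bijective h')
  have hA : ∀ p, eA p = par x y n p := fun p => rfl
  have hB : ∀ p, eB p = par x' y' n p := fun p => rfl
  let e : A ≃ B := eA.symm.trans eB
  have he : ∀ p, e (par x y n p) = par x' y' n p := by
    intro p
    show eB (eA.symm (par x y n p)) = _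
    rw [← hA, Equiv.symm_apply_apply, hB]
  have hmul : ∀ a b : A, e (a * b) = e a * e b := by
    intro a b
    obtain ⟨p, rfl⟩ := par_surjective h a
    obtain ⟨q, rfl⟩ := par_surjective h b
    rw [← par_mrule h, he, he, he, par_mrule h']
  refine ⟨MulEquiv.mk e hmul, ?_, ?_⟩
  · show e x = x'
    rw [← par_x h, he, par_x h']
  · show e y = y'
    rw [← par_y (x := x) (y := y) (n := n), he, par_y]

end Cfsg.Agent.Lib.Helper14.QDIso
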