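import Mathlib
import Cfsg.Agent.Lib.Helper44.TSStmt
import Cfsg.Agent.Lib.Helper38.HypBFE
import Cfsg.Agent.Lib.Helper59.HypDERELT

/-! # S5972 / MULTELT (helper14)

An element of `Omega` of order `r` whose characteristic polynomial is
`(X - 1) ^ (n - i u) * P_1 * .. * P_u` with pairwise different irreducible self-reciprocal `P_j`:
it has no nonzero invariant totally singular subspace without fixed vectors. -/

set_option autoImplicit false

namespace Cfsg.Agent.Lib.Helper14.TSMULTELT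

open Polynomial UniqueFactorizationMonoid Matrix
open Cfsg.Agent.Lib.Helper40.RecipPoly Cfsg.Agent.Lib.Helper44.OCls2
open Cfsg.Agent.Lib.Helper37.HypStmt Cfsg.Agent.Lib.Helper37.HypStmt2 Cfsg.Agent.Lib.Helper44.TSStmt

universe u

section abstract

variable {F : Type*} [Field F] {V : Type*} [AddCommGroup V] [Module F V]

theorem pow_restrict_apply (φ : Module.End F V) (W : Submodule F V) (hW : W ∈ φ.invtSubmodule)
    (n : ℕ) (v : W) : (((φ.restrict hW) ^ n) v : V) = (φ ^ n) (v : V) := by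
  induction n generalizing v with
  | zero => simp
  | succ n ih =>
    rw [pow_succ, pow_succ, Module.End.mul_apply, Module.End.mul_apply, ih]
    rfl

theorem aeval_restrict_apply (φ : Module.End F V) (W : Submodule F V) (hW : W ∈ φ.invtSubmodule)
    (f : F[X]) (v : W) : ((aeval (φ.restrict hW) f v : W) : V) = aeval φ f (v : V) := by
  induction f using Polynomial.induction_on' with
  | add a b ha hb =>
    rw [map_add, map_add, LinearMap.add_apply, LinearMap.add_apply, Submodule.coe_add, ha, hb]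
  | monomial n a =>
    rw [aeval_monomial, aeval_monomial, Module.End.mul_apply, Module.End.mul_apply,
      Module.algebraMap_end_apply, Module.algebraMap_end_apply, Submodule.coe_smul,
      pow_restrict_apply]

theorem ker_aeval_invt (φ : Module.End F V) (P : F[X]) (y : V) (hy : aeval φ P y = 0) :
    aeval φ P (φ y) = 0 := by
  have e1 : aeval φ (P * X) y = aeval φ P (φ y) := by
    rw [map_mul, aeval_X, Module.End.mul_apply]
  have e2 : aeval φ (X * P) y = φ (aeval φ P y) := by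
    rw [map_mul, aeval_X, Module.End.mul_apply]
  rw [← e1, mul_comm, e2, hy, map_zero]

/-- the kernel of `P(φ)` for an irreducible factor `P` of multiplicity one of the characteristic
polynomial of a semisimple `φ` has dimension at most `deg P` -/
theorem finrank_ker_le [FiniteDimensional F V] (φ : Module.End F V) (hss : φ.IsSemisimple)
    (P h : F[X]) (hP : Irreducible P) (hcp : φ.charpoly = P * h) (hcop : IsCoprime P h) :
    Module.finrank F (LinearMap.ker (aeval φ P)) ≤ P.natDegree := by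
  obtain ⟨E, hE⟩ : ∃ E : Submodule F V, E = LinearMap.ker (aeval φ P) := ⟨_, rfl⟩
  rw [← hE]
  have hEinv : E ∈ φ.invtSubmodule := by
    rw [Module.End.mem_invtSubmodule]
    intro v hv
    rw [Submodule.mem_comap, hE, LinearMap.mem_ker]
    rw [hE, LinearMap.mem_ker] at hv
    exact ker_aeval_invt φ P v hv
  obtain ⟨E', hE'inv, hc⟩ := (Module.End.isSemisimple_iff.mp hss) E hEinv
  have hmul := Cfsg.Agent.Lib.Helper40.SSConj.charpoly_eq_mul φ E E' hEinv hE'inv hc
  obtain ⟨χ, hχ⟩ : ∃ χ : F[X], χ = (φ.restrict hEinv).charpoly := ⟨_, rfl⟩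
  have hχm : χ.Monic := hχ ▸ LinearMap.charpoly_monic _
  have hcopχ : IsCoprime χ h := by
    apply isCoprime_of_prime_dvd
    · rintro ⟨h0, -⟩
      exact hχm.ne_zero h0
    · intro z hz hzχ hzh
      have hzirr : Irreducible z := hz.irreducible
      obtain ⟨v, hv, hzv⟩ := Cfsg.Agent.Lib.Helper40.SSConj.exists_ker_of_dvd_charpoly
        (φ.restrict hEinv) z hzirr (hχ ▸ hzχ)
      have hPz : IsCoprime P z := IsCoprime.of_isCoprime_of_dvd_right hcop hzh
      obtain ⟨a, b, hab⟩ := hPz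
      have hPv : aeval (φ.restrict hEinv) P v = 0 := by
        apply Subtype.ext
        rw [aeval_restrict_apply]
        have h3 : (v : V) ∈ LinearMap.ker (aeval φ P) := hE.le v.2
        rw [LinearMap.mem_ker] at h3
        rw [h3]
        rfl
      have h1 : aeval (φ.restrict hEinv) (a * P + b * z) v = v := by
        rw [hab, map_one, Module.End.one_apply]
      rw [map_add, map_mul, map_mul, LinearMap.add_apply, Module.End.mul_apply,
        Module.End.mul_apply, hPv, hzv, map_zero, map_zero, add_zero] at h1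
      exact hv h1.symm
  have hdvd : χ ∣ P * h := by
    rw [← hcp, hmul, ← hχ]
    exact dvd_mul_right _ _
  have hdvdP : χ ∣ P := hcopχ.dvd_of_dvd_mul_right hdvd
  have hdeg := Polynomial.natDegree_le_of_dvd hdvdP hP.ne_zero
  rw [hχ, LinearMap.charpoly_natDegree] at hdeg
  exact hdeg

end abstract

theorem main : MultElt.{u} := by
  classical
  intro F _ _ p _ _ hodd d hd r _ hr2 hrp hev u hu1 hut hiu
  have hr : r.Prime := Fact.out
  have hp : p.Prime := Fact.out
  have hrodd : Odd r := hr.odd_of_ne_two hr2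
  obtain ⟨hipos, hidvd⟩ := Cfsg.Agent.Lib.Helper59.HypDERELT.order_facts F p r hr hrp
  obtain ⟨i, hi⟩ : ∃ i, i = orderOf ((Fintype.card F : ℕ) : ZMod r) := ⟨_, rfl⟩
  rw [← hi] at hev hut hiu hipos hidvd ⊢
  obtain ⟨t, ht'⟩ := hidvd
  have ht : t * i = r - 1 := by rw [ht', mul_comm]
  have hut' : u ≤ t := by
    rw [ht', Nat.mul_div_cancel_left t hipos] at hut
    exact hut
  have hr0 : (r : F) ≠ 0 := by
    rw [Ne, CharP.cast_eq_zero_iff F p]
    intro h
    exact hrp ((Nat.prime_dvd_prime_iff_eq hp hr).mp h).symm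
  obtain ⟨S, hScard, hLS, hS, hSdvd⟩ :=
    Cfsg.Agent.S2568.cyclo_facts (F := F) (p := p) r i t hr hrp hi ht
  obtain ⟨U, hUS, hUcard⟩ := Finset.exists_subset_card_eq (s := S) (n := u)
    (by rw [hScard]; exact hut')
  have hU : ∀ P ∈ U, Irreducible P ∧ P.Monic ∧ P.natDegree = i ∧ P ≠ X - C 1 ∧
      P ∣ X ^ r - C (1 : F) ∧ rstar (RingHom.id F) P = P := by
    intro P hP
    have hPS := hUS hP
    obtain ⟨h1, h2, h3⟩ := hS P hPS
    have hne : P ≠ X - C 1 := fun h => hLS (h ▸ hPS)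
    have hdvd : P ∣ X ^ r - C (1 : F) := (hSdvd P h1 h2).mpr (Or.inr hPS)
    exact ⟨h1, h2, h3, hne, hdvd,
      Cfsg.Agent.Lib.Helper5.SPSELFREC.main F p r hr hrp P h1 h2 hdvd hne (h3 ▸ hev)⟩
  have hreal : ∀ U' : Finset F[X], U' ⊆ U → Real r (∏ P ∈ U', P) := by
    intro U'
    induction U' using Finset.induction_on with
    | empty =>
      intro _
      rw [Finset.prod_empty]
      exact real_one r
    | insert P U'' hPU ih =>
      intro hsub
      rw [Finset.prod_insert hPU]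
      obtain ⟨h1, h2, h3, hne, hdvd, hstar⟩ := hU P (hsub (Finset.mem_insert_self P U''))
      exact real_mul (real_irr p r hr hr2 hr0 P h1 h2 hne hdvd hstar)
        (ih (fun Q hQ => hsub (Finset.mem_insert_of_mem hQ)))
  obtain ⟨ι, _, _, s, N, hsc, hsr, hsN, hNdet⟩ := hreal U (Finset.Subset.refl U)
  have hdegc : (∏ P ∈ U, P).natDegree = i * u := by
    rw [Polynomial.natDegree_prod_of_monic _ _ (fun P hP => (hU P hP).2.1)]
    rw [Finset.sum_congr rfl (fun P hP => (hU P hP).2.2.1), Finset.sum_const, hUcard,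
      smul_eq_mul, mul_comm]
  have hcard : Fintype.card ι = i * u := by
    have h1 := Matrix.charpoly_natDegree_eq_dim s
    rw [hsc, hdegc] at h1
    exact h1.symm
  have hcardI : Fintype.card (I d) = 2 * d + 1 := by
    simp [I]
    omega
  have hlt : i * u < 2 * d + 1 := by omega
  have h2 : (2 : F) ≠ 0 := Cfsg.Agent.Lib.Helper44.FinSq.two_ne_zero_of_odd_card hodd
  have hSQ0 : Cfsg.Agent.Lib.Helper44.QSpace.Sep (Cfsg.Agent.Lib.Helper44.NegPairs.oddQ d F) :=
    Cfsg.Agent.Lib.Helper44.NegPairs.sep_oddQ h2 d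
  have hSN : Cfsg.Agent.Lib.Helper44.QSpace.Sep (Cfsg.Agent.Lib.Helper44.OExt.qN N) :=
    Cfsg.Agent.Lib.Helper44.OExt.sep_qN hNdet
  obtain ⟨k, hk⟩ : Even (i * u) := hev.mul_right u
  obtain ⟨j, hj⟩ := Cfsg.Agent.Lib.Helper44.OEmb.exists_embedding (F := F) k (ι → F)
    (Cfsg.Agent.Lib.Helper44.OExt.qN N) (I d → F) (Cfsg.Agent.Lib.Helper44.NegPairs.oddQ d F)
    (by rw [Module.finrank_fintype_fun_eq_card, hcard]; omega)
    (by rw [Module.finrank_fintype_fun_eq_card, Module.finrank_fintype_fun_eq_card, hcard,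
          hcardI]; exact hlt) hSN hSQ0
  obtain ⟨g, hgiso, hgcp, hgr⟩ := Cfsg.Agent.Lib.Helper44.OExt.exists_ext
    (Cfsg.Agent.Lib.Helper44.NegPairs.oddQ d F) N s hNdet hsN r hr.pos hsr j hj
    (by rw [hcard, hcardI]; omega)
  have hgrM : (g : Matrix (I d) (I d) F) ^ r = 1 := by
    rw [← Units.val_pow_eq_pow_val, hgr]
    rfl
  have hLp : Prime (X - C (1 : F)) := (irreducible_X_sub_C 1).prime
  have hnd : ¬ (X - C (1 : F)) ∣ ∏ P ∈ U, P := by
    intro hd
    obtain ⟨P, hP, hLP⟩ := hLp.exists_mem_finset_dvd hd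
    obtain ⟨h1, h2', -, hne, -⟩ := hU P hP
    have h3 := (irreducible_X_sub_C (1 : F)).associated_of_dvd h1 hLP
    exact hne (eq_of_monic_of_associated (monic_X_sub_C 1) h2' h3).symm
  have hfix : Module.finrank F ↥(Fx (g : Matrix (I d) (I d) F)) = 2 * d + 1 - i * u := by
    rw [Cfsg.Agent.Lib.Helper59.HypDERELT.finrank_Fx _ r hr0 hgrM, hgcp, hsc, hcard, hcardI]
    have hc'0 : (∏ P ∈ U, P) ≠ 0 := by
      intro h
      exact hnd (h ▸ dvd_zero _)
    have hne : (X - C (1 : F)) ^ (2 * d + 1 - i * u) * (∏ P ∈ U, P) ≠ 0 :=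
      mul_ne_zero (pow_ne_zero _ (X_sub_C_ne_zero 1)) hc'0
    rw [rootMultiplicity_mul hne, rootMultiplicity_X_sub_C_pow]
    have h3 : rootMultiplicity 1 (∏ P ∈ U, P) = 0 := by
      apply rootMultiplicity_eq_zero
      intro hroot
      exact hnd (dvd_iff_isRoot.mpr hroot)
    rw [h3, add_zero]
  have hiupos : 0 < i * u := Nat.mul_pos hipos hu1
  have hg1 : g ≠ 1 := by
    intro h
    rw [h] at hfix
    have h3 : Fx ((1 : Matrix.GeneralLinearGroup (I d) F) : Matrix (I d) (I d) F) = ⊤ := by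
      rw [eq_top_iff]
      intro v _
      rw [mem_Fx]
      simp
    rw [h3, finrank_top, Module.finrank_fintype_fun_eq_card, hcardI] at hfix
    omega
  refine ⟨g, ?_, orderOf_eq_prime hgr hg1, hfix, ?_⟩
  · obtain ⟨a, ha⟩ := hrodd
    obtain ⟨g', hg'⟩ : ∃ g' : ↥(Cfsg.isometryGroup F ⇑(Cfsg.Agent.Lib.Helper44.NegPairs.oddQ d F)),
        g' = ⟨g, hgiso⟩ := ⟨_, rfl⟩
    have hg'r : g' ^ r = 1 := by
      apply Subtype.ext
      rw [Subgroup.coe_pow, hg']
      exact hgr
    have hsq : g' = g' ^ (a + 1) * g' ^ (a + 1) := by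
      rw [← pow_add]
      have h3 : a + 1 + (a + 1) = r + 1 := by omega
      rw [h3, pow_succ, hg'r, one_mul]
    have hmem : g' ∈ Cfsg.Omega F ⇑(Cfsg.Agent.Lib.Helper44.NegPairs.oddQ d F) := by
      rw [hsq]
      exact Cfsg.Agent.Lib.Helper14.OrthIndex.sq_mem_omega h2
        (Cfsg.Agent.Lib.Helper44.NegPairs.oddQ d F) hSQ0 (by rw [hcardI]; omega) _
    exact Subgroup.mem_map.mpr ⟨g', hmem, by rw [hg']; rfl⟩
  · intro R hStab hRfix hTS
    by_contra hRne
    obtain ⟨Q, hQ⟩ : ∃ Q : QuadraticForm F (I d → F),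
        Q = Cfsg.Agent.Lib.Helper44.NegPairs.oddQ d F := ⟨_, rfl⟩
    have hQc : ∀ v, Q v = Cfsg.quadFormOdd d F v := fun v => by rw [hQ]; rfl
    obtain ⟨φ, hφ⟩ : ∃ φ : Module.End F (I d → F),
        φ = Matrix.toLin' (g : Matrix (I d) (I d) F) := ⟨_, rfl⟩
    obtain ⟨φ', hφ'⟩ : ∃ φ' : Module.End F (I d → F),
        φ' = Matrix.toLin' ((g⁻¹ : Matrix.GeneralLinearGroup (I d) F) : Matrix (I d) (I d) F) :=
      ⟨_, rfl⟩
    have hφφ' : φ * φ' = 1 := by
      rw [hφ, hφ', Module.End.mul_eq_comp, ← Matrix.toLin'_mul, Units.mul_inv, Matrix.toLin'_one]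
      rfl
    have hφ'φ : φ' * φ = 1 := by
      rw [hφ, hφ', Module.End.mul_eq_comp, ← Matrix.toLin'_mul, Units.inv_mul, Matrix.toLin'_one]
      rfl
    have hφQ : ∀ v, Q (φ v) = Q v := by
      intro v
      rw [hQc, hQc, hφ, Matrix.toLin'_apply]
      exact hgiso v v
    have hφR : ∀ v ∈ R, φ v ∈ R := fun v hv => by
      rw [hφ]
      exact hStab (Submodule.mem_map_of_mem hv)
    have hss : φ.IsSemisimple :=
      hφ ▸ Cfsg.Agent.Lib.Helper40.SSConj.isSemisimple_toLin' _ r hr0 hgrM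
    have hcpφ : φ.charpoly = (X - C 1) ^ (2 * d + 1 - i * u) * ∏ P ∈ U, P := by
      rw [hφ, Matrix.charpoly_toLin', hgcp, hsc, hcard, hcardI]
    obtain ⟨v, hvR, hv0⟩ := (Submodule.ne_bot_iff R).mp hRne
    have hfree : ∀ w ∈ R, φ w = w → w = 0 := by
      intro w hw hfixw
      have h3 : w ∈ R ⊓ Fx (g : Matrix (I d) (I d) F) :=
        Submodule.mem_inf.mpr ⟨hw, (mem_Fx _ _).mpr (by
          rw [← Matrix.toLin'_apply, ← hφ]
          exact hfixw)⟩
      rw [hRfix] at h3
      exact (Submodule.mem_bot F).mp h3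
    have hinj : ∀ n : ℕ, ∀ w ∈ R, aeval φ ((X - C (1 : F)) ^ n) w = 0 → w = 0 := by
      intro n
      induction n with
      | zero =>
        intro w _ hw
        rw [pow_zero, map_one, Module.End.one_apply] at hw
        exact hw
      | succ n ih =>
        intro w hw hw0
        rw [pow_succ, map_mul, Module.End.mul_apply] at hw0
        have hw' : aeval φ (X - C (1 : F)) w ∈ R :=
          Cfsg.Agent.Lib.Helper37.HypCyc.aeval_mem φ R hφR _ hw
        have h3 := ih _ hw' hw0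
        rw [map_sub, aeval_X, aeval_C, map_one, LinearMap.sub_apply, Module.End.one_apply,
          sub_eq_zero] at h3
        exact hfree w hw h3
    have hkill : aeval φ (∏ P ∈ U, P) v = 0 := by
      apply hinj (2 * d + 1 - i * u) _
        (Cfsg.Agent.Lib.Helper37.HypCyc.aeval_mem φ R hφR _ hvR)
      rw [← Module.End.mul_apply, ← map_mul, ← hcpφ, LinearMap.aeval_self_charpoly]
      rfl
    have hval : U.val.prod = ∏ P ∈ U, P := by
      rw [Finset.prod_val]
      rfl
    obtain ⟨P, hPU', gp, hw0, hPw⟩ := Cfsg.Agent.Lib.Helper37.HypCyc.exists_factor φ U.val v hv0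
      (by rw [hval]; exact hkill)
    have hPU : P ∈ U := Finset.mem_val.mp hPU'
    obtain ⟨w, hw⟩ : ∃ w, w = aeval φ gp v := ⟨_, rfl⟩
    rw [← hw] at hw0 hPw
    have hwR : w ∈ R := hw ▸ Cfsg.Agent.Lib.Helper37.HypCyc.aeval_mem φ R hφR gp hvR
    obtain ⟨hPirr, hPm, hPdeg, hPne, hPdvd, hPstar⟩ := hU P hPU
    obtain ⟨h, hh⟩ : ∃ h : F[X],
        h = (X - C 1) ^ (2 * d + 1 - i * u) * ∏ P' ∈ U.erase P, P' := ⟨_, rfl⟩
    have hPh : φ.charpoly = P * h := by
      rw [hcpφ, hh, ← Finset.mul_prod_erase U (fun P' => P') hPU]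
      ring
    have hcop : IsCoprime P h := by
      rw [hh]
      apply IsCoprime.mul_right
      · apply IsCoprime.pow_right
        rw [hPirr.coprime_iff_not_dvd]
        intro hd
        have h3 := hPirr.associated_of_dvd (irreducible_X_sub_C (1 : F)) hd
        exact hPne (eq_of_monic_of_associated hPm (monic_X_sub_C 1) h3)
      · apply IsCoprime.prod_right
        intro P' hP'
        obtain ⟨hne', hP'U⟩ := Finset.mem_erase.mp hP'
        obtain ⟨hirr', hm', -⟩ := hU P' hP'U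
        rw [hPirr.coprime_iff_not_dvd]
        intro hd
        exact hne' (eq_of_monic_of_associated hm' hPm (hPirr.associated_of_dvd hirr' hd).symm)
    have hdimE : Module.finrank F (LinearMap.ker (aeval φ P)) ≤ i :=
      le_trans (finrank_ker_le φ hss P h hPirr hPh hcop) (le_of_eq hPdeg)
    obtain ⟨E, hE⟩ : ∃ E : Submodule F (I d → F), E = LinearMap.ker (aeval φ P) := ⟨_, rfl⟩
    rw [← hE] at hdimE
    have hEφ : ∀ y ∈ E, φ y ∈ E := by
      intro y hy
      rw [hE, LinearMap.mem_ker] at hy ⊢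
      exact ker_aeval_invt φ P y hy
    have hStabC : Stab (g : Matrix (I d) (I d) F) (R ⊓ E) := by
      rintro _ ⟨y, hy, rfl⟩
      rw [← hφ]
      exact Submodule.mem_inf.mpr ⟨hφR y (Submodule.mem_inf.mp hy).1,
        hEφ y (Submodule.mem_inf.mp hy).2⟩
    have hCfix : (R ⊓ E) ⊓ Fx (g : Matrix (I d) (I d) F) = ⊥ :=
      eq_bot_iff.mpr (le_trans (inf_le_inf_right _ inf_le_left) (le_of_eq hRfix))
    have hdvdC := Cfsg.Agent.Lib.Helper82.HypINVDIM.main F p d r hrp g hgr (R ⊓ E) hStabC hCfix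
    rw [← hi] at hdvdC
    have hwC : w ∈ R ⊓ E :=
      Submodule.mem_inf.mpr ⟨hwR, by rw [hE, LinearMap.mem_ker]; exact hPw⟩
    have hCpos : 0 < Module.finrank F ↥(R ⊓ E) :=
      Module.finrank_pos_iff_exists_ne_zero.mpr
        ⟨⟨w, hwC⟩, fun h => hw0 (congrArg Subtype.val h)⟩
    have hCge : i ≤ Module.finrank F ↥(R ⊓ E) := Nat.le_of_dvd hCpos hdvdC
    have hEC : R ⊓ E = E :=
      Submodule.eq_of_le_of_finrank_le inf_le_right (le_trans hdimE hCge)
    have hER : E ≤ R := le_of_eq_of_le hEC.symm inf_le_left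
    have hSQ : Cfsg.Agent.Lib.Helper44.QSpace.Sep Q := by
      rw [hQ]
      exact hSQ0
    apply hw0
    apply hSQ
    intro y
    obtain ⟨a, b, hab⟩ := hcop
    obtain ⟨y₁, hy₁⟩ : ∃ y₁, y₁ = aeval φ (b * h) y := ⟨_, rfl⟩
    obtain ⟨y₂, hy₂⟩ : ∃ y₂, y₂ = aeval φ (a * P) y := ⟨_, rfl⟩
    have hsum : y = y₂ + y₁ := by
      have h3 : aeval φ (a * P + b * h) y = y := by rw [hab, map_one, Module.End.one_apply]
      rw [map_add, LinearMap.add_apply] at h3
      rw [hy₁, hy₂]
      exact h3.symm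
    have hk1 : aeval φ P y₁ = 0 := by
      rw [hy₁, ← Module.End.mul_apply, ← map_mul]
      have e : P * (b * h) = b * (P * h) := by ring
      rw [e, ← hPh, map_mul, LinearMap.aeval_self_charpoly, mul_zero]
      rfl
    have hk2 : aeval φ h y₂ = 0 := by
      rw [hy₂, ← Module.End.mul_apply, ← map_mul]
      have e : h * (a * P) = a * (P * h) := by ring
      rw [e, ← hPh, map_mul, LinearMap.aeval_self_charpoly, mul_zero]
      rfl
    have hts : ∀ x₁ x₂, x₁ ∈ R → x₂ ∈ R → QuadraticMap.polar Q x₁ x₂ = 0 := by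
      intro x₁ x₂ hx₁ hx₂
      unfold QuadraticMap.polar
      rw [hQc, hQc, hQc, hTS x₁ hx₁, hTS x₂ hx₂, hTS (x₁ + x₂) (R.add_mem hx₁ hx₂)]
      simp
    have hy₁E : y₁ ∈ E := by
      rw [hE, LinearMap.mem_ker]
      exact hk1
    have hstar' : C (P.coeff 0)⁻¹ * P.reverse = P := by
      have h3 := hPstar
      unfold rstar at h3
      rw [Polynomial.map_id, RingHom.id_apply] at h3
      exact h3
    have ha0 : P.coeff 0 ≠ 0 := by
      intro h
      rw [h, _root_.inv_zero, map_zero, zero_mul] at hstar'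
      exact hPirr.ne_zero hstar'.symm
    have hrevP : P.reverse = C (P.coeff 0) * P :=
      calc P.reverse = C (P.coeff 0) * (C (P.coeff 0)⁻¹ * P.reverse) := by
            rw [← mul_assoc, ← C_mul, mul_inv_cancel₀ ha0, C_1, one_mul]
        _ = C (P.coeff 0) * P := by rw [hstar']
    have horth : QuadraticMap.polar Q w y₂ = 0 :=
      Cfsg.Agent.Lib.Helper38.HypBFE.orth Q φ φ' hφφ' hφ'φ hφQ P h (P.coeff 0) ha0 hrevP
        ⟨a, b, hab⟩ w y₂ hPw hk2
    rw [hsum, QuadraticMap.polar_add_right, horth, hts w y₁ hwR (hER hy₁E), add_zero]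

end Cfsg.Agent.Lib.Helper14.TSMULTELT
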